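import Mathlib.LinearAlgebra.Alternating.Basic
import Mathlib.LinearAlgebra.Matrix.Determinant.Basic
import Mathlib.LinearAlgebra.StdBasis
import Mathlib.LinearAlgebra.ExteriorPower.Basis

/-!
# Alternating maps and determinants

`alt_det`: `g (fun k => ∑ j, a k j • v j) = det a • g v` for an alternating map `g`.
-/

set_option autoImplicit false

universe u v w

namespace Groth.Agent.Dual.H376.AltDet

variable {A : Type u} [CommRing A] {M : Type v} [AddCommGroup M] [Module A M] {P : Type w} [AddCommGroup P]
  [Module A P] {r : ℕ}

theorem alt_det (g : M [⋀^Fin r]→ₗ[A] P) (v : Fin r → M) (a : Matrix (Fin r) (Fin r) A) :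
    g (fun k => ∑ j, a k j • v j) = a.det • g v := by
  let φ : (Fin r → A) →ₗ[A] M := Fintype.linearCombination A v
  have hφ : ∀ x : Fin r → A, φ x = ∑ j, x j • v j := fun x => Fintype.linearCombination_apply A v x
  have key : g.compLinearMap φ =
      (LinearMap.toSpanSingleton A P (g v)).compAlternatingMap (Matrix.detRowAlternating (n := Fin r) (R := A)) := by
    refine Module.Basis.ext_alternating (Pi.basisFun A (Fin r)) fun s hs => ?_
    have hb : Function.Bijective s := Finite.injective_iff_bijective.mp hs
    let σ : Equiv.Perm (Fin r) := Equiv.ofBijective s hb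
    have h1 : (fun k => φ (Pi.basisFun A (Fin r) (s k))) = v ∘ σ := by
      funext k
      rw [hφ, Finset.sum_eq_single (s k)]
      · simp [σ]
      · intro j _ hj
        simp [hj]
      · simp
    have h2 : (fun k => Pi.basisFun A (Fin r) (s k)) = (1 : Matrix (Fin r) (Fin r) A) ∘ σ := by
      funext k j
      simp [σ, Matrix.one_apply, Pi.single_apply, eq_comm]
    change g (fun k => φ (Pi.basisFun A (Fin r) (s k))) =
      (Matrix.detRowAlternating (fun k => Pi.basisFun A (Fin r) (s k))) • g v
    rw [h1, h2, AlternatingMap.map_perm, AlternatingMap.map_perm]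
    change _ = (Equiv.Perm.sign σ • (1 : Matrix (Fin r) (Fin r) A).det) • g v
    rw [Matrix.det_one, Units.smul_def, Units.smul_def, ← Int.cast_smul_eq_zsmul A, ← Int.cast_smul_eq_zsmul A]
    simp
  have h3 := congrArg (fun h => h a) key
  have h4 : (g.compLinearMap φ) a = g (fun k => φ (a k)) := rfl
  have h5 : ((LinearMap.toSpanSingleton A P (g v)).compAlternatingMap
    (Matrix.detRowAlternating (n := Fin r) (R := A))) a = a.det • g v := rfl
  beta_reduce at h3
  rw [h4, h5] at h3
  rw [← h3]
  congr 1

/-- The top exterior power in terms of a basis: bijectivity of `a ↦ a • (b_1 ∧ … ∧ b_r)`. -/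
theorem bijective_smul_ιMulti (b : Module.Basis (Fin r) A M) :
    Function.Bijective (fun a : A => a • exteriorPower.ιMulti A r (b : Fin r → M)) := by
  let B := b.exteriorPower r
  have hcard : Fintype.card (Set.powersetCard (Fin r) r) = 1 := by
    rw [← Nat.card_eq_fintype_card, Set.powersetCard.card]
    simp
  have hu : Nonempty (Unique (Set.powersetCard (Fin r) r)) := Fintype.card_eq_one_iff_nonempty_unique.mp hcard
  obtain ⟨hu⟩ := hu
  have hd : (Set.powersetCard.ofFinEmbEquiv.symm (default : Set.powersetCard (Fin r) r) : Fin r → Fin r) = id := by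
    have hmono : StrictMono (Set.powersetCard.ofFinEmbEquiv.symm (default : Set.powersetCard (Fin r) r) : Fin r → Fin r) :=
      OrderEmbedding.strictMono _
    exact (StrictMono.range_inj hmono strictMono_id).mp (by
      rw [Set.range_id, (Finite.injective_iff_surjective.mp hmono.injective).range_eq])
  have hB : B default = exteriorPower.ιMulti A r (b : Fin r → M) := by
    rw [exteriorPower.basis_apply, exteriorPower.ιMulti_family]
    congr 1
    funext j
    have := congrFun hd j
    exact congrArg b this
  rw [← hB]
  constructor
  · intro a a' h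
    have h1 : B.repr (a • B default) default = B.repr (a' • B default) default := congrArg (fun x => B.repr x default) h
    simpa using h1
  · intro x
    refine ⟨B.repr x default, ?_⟩
    have h1 := B.sum_repr x
    rw [Fintype.sum_unique] at h1
    exact h1

end Groth.Agent.Dual.H376.AltDet
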