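import Groth.Agent.CycA.KoszulBridge
import Groth.Agent.Sga67.KosAlt
import Groth.Prelude.Def_LCI2

/-!
# The mapping cone model of the Koszul complex and alternating maps

`koszulAlt l : AltIso (ofCx (Koszul.koszul A l)) l.length l.get A` identifies the Koszul complex of the prelude with the
complex of alternating maps with differential `curryLeft`; hence `exists_curryLeft_eq` for Koszul-regular sequences.
-/

set_option autoImplicit false

universe u v w

open CategoryTheory CategoryTheory.Limits
open Groth.Agent.Sga67.KosAlt Groth.Agent.CycA.KoszulCore Groth.Agent.CycA.KoszulBridge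

namespace Groth.Agent.Dual.H376.KosBridge

variable {A : Type u} [CommRing A]

section Alg

variable {n k : ℕ} {M : Type v} [AddCommGroup M] [Module A M]

/-- Restriction and contraction. -/
def P (A : Type u) [CommRing A] (n k : ℕ) (M : Type v) [AddCommGroup M] [Module A M] :
    Alt A (n + 1) (k + 1) M →ₗ[A] Alt A n k M × Alt A n (k + 1) M where
  toFun w := (p2 w, p1 w)
  map_add' w w' := by
    apply Prod.ext
    · ext v
      simp [p2_apply]
    · ext v
      simp [p1_apply]
  map_smul' a w := by
    apply Prod.ext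
    · ext v
      simp [p2_apply]
    · ext v
      simp [p1_apply]

theorem P_apply (w : Alt A (n + 1) (k + 1) M) : P A n k M w = (p2 w, p1 w) := rfl

theorem P_bijective : Function.Bijective (P A n k M) := by
  constructor
  · rw [← LinearMap.ker_eq_bot, LinearMap.ker_eq_bot']
    intro w hw
    rw [P_apply] at hw
    exact eq_zero_of_p1_p2 (congrArg Prod.snd hw) (congrArg Prod.fst hw)
  · rintro ⟨x, y⟩
    obtain ⟨w, h1, h2⟩ := exists_p1_p2 y x
    exact ⟨w, by rw [P_apply, h1, h2]⟩

/-- Restriction and contraction. -/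
noncomputable def Pe (A : Type u) [CommRing A] (n k : ℕ) (M : Type v) [AddCommGroup M] [Module A M] :
    Alt A (n + 1) (k + 1) M ≃ₗ[A] Alt A n k M × Alt A n (k + 1) M := LinearEquiv.ofBijective _ P_bijective

theorem Pe_apply (w : Alt A (n + 1) (k + 1) M) : Pe A n k M w = (p2 w, p1 w) := rfl

theorem alt_zero_ext {n : ℕ} {z z' : Alt A n 0 M} (h : z (fun i => i.elim0) = z' (fun i => i.elim0)) : z = z' := by
  ext v
  have : v = fun i => i.elim0 := by
    funext i
    exact i.elim0
  rw [this, h]

/-- Maps of no variables. -/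
def Q (A : Type u) [CommRing A] (n : ℕ) (M : Type v) [AddCommGroup M] [Module A M] :
    Alt A n 0 M ≃ₗ[A] Alt A (n + 1) 0 M where
  toFun z := z.compLinearMap (proj A n)
  invFun z := p1 z
  map_add' z z' := by
    ext v
    rfl
  map_smul' a z := by
    ext v
    rfl
  left_inv z := by
    ext v
    rfl
  right_inv z := by
    apply alt_zero_ext
    change z _ = z _
    congr 1
    funext i
    exact i.elim0

theorem p1_Q (z : Alt A n 0 M) : p1 (Q A n M z) = z := (Q A n M).left_inv z

theorem p1_injective_zero {z z' : Alt A (n + 1) 0 M} (h : p1 z = p1 z') : z = z' := (Q A n M).symm.injective h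

end Alg

/-- Identification of an elementary complex with the complex of alternating maps. -/
structure AltIso (E : EC.{u, v} A) (n : ℕ) (f : Fin n → A) (M : Type w) [AddCommGroup M] [Module A M] where
  /-- the identifications -/
  e : ∀ (k : ℕ) (i : ℤ), i = -(k : ℤ) → (E.X i ≃ₗ[A] Alt A n k M)
  comm : ∀ (k : ℕ) (i : ℤ) (hi : i = -((k + 1 : ℕ) : ℤ)) (hi' : i + 1 = -(k : ℤ)) (x : E.X i),
    e k (i + 1) hi' (E.d i x) = (e (k + 1) i hi x).curryLeft f
  pos : ∀ i : ℤ, 0 < i → Subsingleton (E.X i)

namespace AltIso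

variable {M : Type w} [AddCommGroup M] [Module A M]

/-- Transport along an isomorphism. -/
def ofIso {E E' : EC.{u, v} A} {n : ℕ} {f : Fin n → A} (φ : Iso E' E) (h : AltIso E n f M) : AltIso E' n f M where
  e k i hi := (φ.e i).trans (h.e k i hi)
  comm k i hi hi' x := by
    change h.e k (i + 1) hi' (φ.e (i + 1) (E'.d i x)) = (h.e (k + 1) i hi (φ.e i x)).curryLeft f
    rw [φ.comm, h.comm k i hi hi']
  pos i hi := by
    have := h.pos i hi
    exact (φ.e i).toEquiv.subsingleton

/-- The identifications for the cone. -/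
noncomputable def coneE {E : EC.{u, v} A} {n : ℕ} {f : Fin n → A} (h : AltIso E n f M) (a : A) :
    ∀ (k : ℕ) (i : ℤ), i = -(k : ℤ) → ((E.cone a).X i ≃ₗ[A] Alt A (n + 1) k M)
  | 0, i, hi =>
    have : Subsingleton (E.X (i + 1)) := h.pos (i + 1) (by omega)
    let : Unique (E.X (i + 1)) := { default := 0, uniq := fun _ => Subsingleton.elim _ _ }
    (show (E.X (i + 1) × E.X i) ≃ₗ[A] E.X i from
      LinearEquiv.uniqueProd).trans ((h.e 0 i hi).trans (Q A n M))
  | k + 1, i, hi =>
    (show (E.X (i + 1) × E.X i) ≃ₗ[A] (Alt A n k M × Alt A n (k + 1) M) from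
      LinearEquiv.prodCongr (h.e k (i + 1) (by omega)) (h.e (k + 1) i hi)).trans (Pe A n k M).symm

theorem p1_coneE_zero {E : EC.{u, v} A} {n : ℕ} {f : Fin n → A} (h : AltIso E n f M) (a : A) (i : ℤ)
    (hi : i = -((0 : ℕ) : ℤ)) (x : E.X (i + 1)) (y : E.X i) : p1 (h.coneE a 0 i hi (x, y)) = h.e 0 i hi y := by
  have h1 : h.coneE a 0 i hi (x, y) = Q A n M (h.e 0 i hi y) := rfl
  rw [h1, p1_Q]

theorem Pe_coneE {E : EC.{u, v} A} {n : ℕ} {f : Fin n → A} (h : AltIso E n f M) (a : A) (k : ℕ) (i : ℤ)
    (hi : i = -((k + 1 : ℕ) : ℤ)) (x : E.X (i + 1)) (y : E.X i) :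
    Pe A n k M (h.coneE a (k + 1) i hi (x, y)) = (h.e k (i + 1) (by omega) x, h.e (k + 1) i hi y) := by
  have h1 : h.coneE a (k + 1) i hi (x, y) =
      (Pe A n k M).symm (h.e k (i + 1) (by omega) x, h.e (k + 1) i hi y) := rfl
  rw [h1, LinearEquiv.apply_symm_apply]

/-- Cones. -/
noncomputable def cone {E : EC.{u, v} A} {n : ℕ} {f : Fin n → A} (h : AltIso E n f M) (a : A) :
    AltIso (E.cone a) (n + 1) (Fin.cons a f) M where
  e := h.coneE a
  comm k i hi hi' x := by
    obtain ⟨x, y⟩ := x
    have hP := h.Pe_coneE a k i hi x y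
    rw [Pe_apply] at hP
    have h1 := congrArg Prod.fst hP
    have h2 := congrArg Prod.snd hP
    dsimp only at h1 h2
    have hd : (E.cone a).d i (x, y) = (-(E.d (i + 1) x), a • x + E.d i y) := rfl
    rw [hd, consVec_eq]
    match k, hi, hi', h1, h2 with
    | 0, hi, hi', h1, h2 =>
      apply p1_injective_zero
      rw [p1_curryLeft, h1, h2]
      refine (h.p1_coneE_zero a (i + 1) hi' _ _).trans ?_
      rw [map_add, map_smul, h.comm 0 i hi hi']
    | k + 1, hi, hi', h1, h2 =>
      apply (Pe A n k M).injective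
      refine (h.Pe_coneE a k (i + 1) hi' _ _).trans ?_
      rw [Pe_apply, p1_curryLeft, p2_curryLeft, h1, h2]
      apply Prod.ext
      · dsimp only
        rw [map_neg]
        congr 1
        exact h.comm k (i + 1) (by omega) (by omega) x
      · dsimp only
        rw [map_add, map_smul, h.comm (k + 1) i hi hi']
  pos i hi := by
    have h1 := h.pos i hi
    have h2 := h.pos (i + 1) (by omega)
    change Subsingleton (E.X (i + 1) × E.X i)
    infer_instance

end AltIso

theorem alt_succ_zero {k : ℕ} {M : Type w} [AddCommGroup M] [Module A M] (z : Alt A 0 (k + 1) M) : z = 0 := by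
  ext v
  have : v 0 = 0 := by
    funext i
    exact Fin.elim0 i
  rw [z.map_coord_zero 0 this]
  rfl

/-- Maps of no variables are elements. -/
def alt00 (A : Type u) [CommRing A] (M : Type w) [AddCommGroup M] [Module A M] (n : ℕ) : M ≃ₗ[A] Alt A n 0 M where
  toFun m := AlternatingMap.constOfIsEmpty A (Fin n → A) (Fin 0) m
  invFun z := z (fun i => i.elim0)
  map_add' _ _ := rfl
  map_smul' _ _ := rfl
  left_inv _ := rfl
  right_inv _ := alt_zero_ext rfl

open CochainComplex in
/-- The base case. -/
noncomputable def baseAlt : AltIso (ofCx (Koszul.koszul A [])) 0 (fun i : Fin 0 => i.elim0) A where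
  e k i hi := match k, hi with
    | 0, hi => by
      subst hi
      exact (show (ofCx (Koszul.koszul A [])).X (-((0 : ℕ) : ℤ)) ≃ₗ[A] A from
        (HomologicalComplex.singleObjXSelf (ComplexShape.up ℤ) 0 (ModuleCat.of A A)).toLinearEquiv).trans (alt00 A A 0)
    | k + 1, hi =>
      have : Subsingleton ((ofCx (Koszul.koszul A [])).X i) :=
        ModuleCat.subsingleton_of_isZero
          (HomologicalComplex.isZero_single_obj_X (ComplexShape.up ℤ) 0 (ModuleCat.of A A) i (by omega))
      { toFun := fun _ => 0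
        invFun := fun _ => 0
        map_add' := fun _ _ => (add_zero _).symm
        map_smul' := fun _ _ => (smul_zero _).symm
        left_inv := fun _ => Subsingleton.elim _ _
        right_inv := fun z => (alt_succ_zero z).symm }
  comm k i hi hi' x := by
    have : Subsingleton ((ofCx (Koszul.koszul A [])).X i) :=
        ModuleCat.subsingleton_of_isZero
          (HomologicalComplex.isZero_single_obj_X (ComplexShape.up ℤ) 0 (ModuleCat.of A A) i (by omega))
    rw [Subsingleton.elim x 0]
    simp
  pos i hi := ModuleCat.subsingleton_of_isZero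
          (HomologicalComplex.isZero_single_obj_X (ComplexShape.up ℤ) 0 (ModuleCat.of A A) i (by omega))

omit [CommRing A] in
theorem get_cons (a : A) (l : List A) : (a :: l).get = (Fin.cons a l.get : Fin (l.length + 1) → A) := by
  funext i
  induction i using Fin.cases with
  | zero => rfl
  | succ i => rfl

/-- The Koszul complex is the complex of alternating maps. -/
theorem nonempty_koszulAlt (l : List A) : Nonempty (AltIso (ofCx (Koszul.koszul A l)) l.length l.get A) := by
  induction l with
  | nil =>
    have h : (fun i : Fin 0 => i.elim0) = ([] : List A).get := by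
      funext i
      exact i.elim0
    rw [← h]
    exact ⟨baseAlt⟩
  | cons a l ih =>
    obtain ⟨h⟩ := ih
    rw [get_cons]
    exact ⟨AltIso.ofIso (coneIso (Koszul.koszul A l) a) (h.cone a)⟩

/-- **Exactness of the complex of alternating maps for a Koszul-regular sequence.** -/
theorem exists_curryLeft_eq {l : List A} (hl : LCI.IsKoszulRegularSeq A l) (k : ℕ)
    (z : Alt A l.length (k + 1) A) (hz : z.curryLeft l.get = 0) :
    ∃ w : Alt A l.length (k + 2) A, w.curryLeft l.get = z := by
  obtain ⟨h⟩ := nonempty_koszulAlt l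
  let j : ℤ := -((k + 2 : ℕ) : ℤ)
  have hj : j + 1 = -((k + 1 : ℕ) : ℤ) := by omega
  have hj2 : j + 1 + 1 = -(k : ℤ) := by omega
  let x : (ofCx (Koszul.koszul A l)).X (j + 1) := (h.e (k + 1) (j + 1) hj).symm z
  have hx' : (ofCx (Koszul.koszul A l)).d (j + 1) x = 0 := by
    apply (h.e k (j + 1 + 1) hj2).injective
    rw [map_zero]
    refine (h.comm k (j + 1) hj hj2 x).trans ?_
    rw [LinearEquiv.apply_symm_apply]
    exact hz
  have hx : ((Koszul.koszul A l).d (j + 1) (j + 1 + 1)).hom x = 0 := hx'
  have h0 : IsZero ((Koszul.koszul A l).homology (j + 1)) := hl (j + 1) (by omega)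
  rw [← HomologicalComplex.exactAt_iff_isZero_homology,
    HomologicalComplex.exactAt_iff' _ j (j + 1) (j + 1 + 1) (by simp) (by simp),
    ShortComplex.moduleCat_exact_iff] at h0
  obtain ⟨y, hy⟩ := h0 x hx
  refine ⟨h.e (k + 2) j rfl y, ?_⟩
  rw [← h.comm (k + 1) j rfl hj y]
  have h2 : (ofCx (Koszul.koszul A l)).d j y = x := hy
  rw [h2, LinearEquiv.apply_symm_apply]

end Groth.Agent.Dual.H376.KosBridge
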