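import Groth.Agent.Dual.H377.KChart
import Groth.Agent.Dual.H376.KosBridge
import Groth.Agent.Sga67.KosConormal

/-!
# The conormal module over a Koszul chart

For a Koszul chart `c` of a closed immersion `i : X ⟶ Y`, the classes `fN c j` of the generators of the ideal are a local
basis of the conormal module over `i⁻¹ c.U`.
-/

set_option autoImplicit false

universe u v w

open CategoryTheory CategoryTheory.Limits AlgebraicGeometry Opposite TopologicalSpace
open scoped TensorProduct
open Groth.Agent.Sga67 Groth.Agent.Sga67.Sec Groth.Agent.Sga67.LocBasis Groth.Agent.Sga67.KosAlt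
  Groth.Agent.Sga67.KosStalk Groth.Agent.Sga67.KosImm Groth.Agent.Sga67.KosConormal
  Groth.Agent.Dual.H377.KChart

namespace Groth.Agent.Dual.H376.ChartConormal

section Alg

/-- Relations have coefficients in the ideal if the complex of alternating maps is exact in degree one. -/
theorem coef_of_exact {A : Type u} [CommRing A] {n : ℕ} (f : Fin n → A)
    (hex : ∀ z : Alt A n 1 A, z.curryLeft f = 0 → ∃ w : Alt A n 2 A, w.curryLeft f = z)
    (a : Fin n → A) (ha : ∑ j, a j * f j = 0) (j : Fin n) : a j ∈ Ideal.span (Set.range f) := by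
  classical
  let L : (Fin n → A) →ₗ[A] A := (Pi.basisFun A (Fin n)).constr A a
  let z : Alt A n 1 A := AlternatingMap.ofSubsingleton A _ _ (0 : Fin 1) L
  have hz : ∀ v, z v = L (v 0) := fun v => rfl
  have hL : ∀ v, L v = ∑ j, v j * a j := by
    intro v
    simp only [L, Module.Basis.constr_apply_fintype, Pi.basisFun_equivFun, LinearEquiv.refl_apply, smul_eq_mul]
  have hz0 : z.curryLeft f = 0 := by
    ext v
    rw [AlternatingMap.curryLeft_apply_apply, hz]
    change L f = 0
    rw [hL, ← ha]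
    exact Finset.sum_congr rfl fun j _ => mul_comm _ _
  obtain ⟨w, hw⟩ := hex z hz0
  have h1 : a j = w.curryLeft f (fun _ => Pi.basisFun _ _ j) := by
    rw [hw, hz, hL, Finset.sum_eq_single j]
    · simp
    · intro l _ hl
      simp [hl]
    · simp
  rw [h1, curryLeft_eq_sum, Chart.alt_sum_apply]
  exact Ideal.sum_mem _ fun l _ => Ideal.mul_mem_right _ _ (Ideal.subset_span ⟨l, rfl⟩)

/-- The same after localization. -/
theorem coef_of_localization {A : Type u} {B : Type v} [CommRing A] [CommRing B] [Algebra A B] (S : Submonoid A)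
    [IsLocalization S B] {n : ℕ} (f : Fin n → A)
    (h : ∀ a : Fin n → A, ∑ j, a j * f j = 0 → ∀ j, a j ∈ Ideal.span (Set.range f))
    (b : Fin n → B) (hb : ∑ j, b j * algebraMap A B (f j) = 0) (j : Fin n) :
    b j ∈ Ideal.span (Set.range (fun j => algebraMap A B (f j))) := by
  obtain ⟨s, hs⟩ := IsLocalization.exist_integer_multiples_of_finite S b
  choose a ha using hs
  have h1 : algebraMap A B (∑ j, a j * f j) = 0 := by
    rw [map_sum]
    have : ∀ j, algebraMap A B (a j * f j) = algebraMap A B s * (b j * algebraMap A B (f j)) := by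
      intro j
      rw [map_mul, ha, Algebra.smul_def, mul_assoc]
    simp only [this]
    rw [← Finset.mul_sum, hb, mul_zero]
  obtain ⟨t, ht⟩ := (IsLocalization.map_eq_zero_iff S B _).mp h1
  have h2 : ∑ j, (t : A) * a j * f j = 0 := by
    rw [← ht, Finset.mul_sum]
    exact Finset.sum_congr rfl fun j _ => mul_assoc _ _ _
  have h3 := h (fun j => (t : A) * a j) h2 j
  have h4 : algebraMap A B ((t : A) * a j) ∈ Ideal.span (Set.range (fun j => algebraMap A B (f j))) := by
    have h5 := Ideal.mem_map_of_mem (algebraMap A B) h3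
    rw [Ideal.map_span, ← Set.range_comp] at h5
    exact h5
  have h6 : algebraMap A B ((t : A) * a j) = algebraMap A B ((t * s : S) : A) * b j := by
    rw [map_mul, ha, Algebra.smul_def, ← mul_assoc, Submonoid.coe_mul, map_mul]
  rw [h6] at h4
  have hu : IsUnit (algebraMap A B ((t * s : S) : A)) := IsLocalization.map_units B (t * s)
  exact (Ideal.unit_mul_mem_iff_mem _ hu).mp h4

end Alg

variable {X Y : Scheme.{u}} {i : X ⟶ Y} {r : ℕ} (c : KChart i r)

/-- Relations between the elements of the sequence have coefficients in the ideal. -/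
theorem coeff_mem {y : Y} (hy : y ∈ c.U) (a : Fin r → Y.presheaf.stalk y)
    (ha : ∑ j, a j * gO Y hy (c.f j) = 0) (j : Fin r) :
    a j ∈ Ideal.span (Set.range (fun j => gO Y hy (c.f j))) := by
  let : Algebra Γ(Y, c.U) (Y.presheaf.stalk y) := (Y.presheaf.germ c.U y hy).hom.toAlgebra
  have h1 : IsLocalization.AtPrime (Y.presheaf.stalk y)
      (c.hU.primeIdealOf ⟨y, hy⟩).asIdeal := c.hU.isLocalization_stalk ⟨y, hy⟩
  exact coef_of_localization (c.hU.primeIdealOf ⟨y, hy⟩).asIdeal.primeCompl c.f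
    (fun a ha j => coef_of_exact c.f (c.hex 0) a ha j) a ha j

theorem app_f [IsClosedImmersion i] (j : Fin r) : i.app c.U (c.f j) = 0 := by
  have h : c.f j ∈ i.ker.ideal ⟨c.U, c.hU⟩ := by
    rw [c.hker]
    exact Ideal.subset_span ⟨j, rfl⟩
  rw [Scheme.Hom.ker_apply] at h
  exact h

theorem ker_stalkMap [IsClosedImmersion i] {x : X} (hx : i x ∈ c.U) :
    RingHom.ker (i.stalkMap x).hom = Ideal.span (Set.range (fun j => gO Y hx (c.f j))) := by
  rw [← CycA.StalkIdeal.stalkIdeal_ker, CycA.StalkIdeal.stalkIdeal_eq_map _ (i x) ⟨c.U, c.hU⟩ hx, c.hker,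
    Ideal.map_span, ← Set.range_comp]
  rfl

theorem cn_eq_zero [IsClosedImmersion i] {x : X} (hx : i x ∈ c.U) (P : Y.Modules) (e : StM P (i x))
    (he : cn i P x e = 0) : ∃ b : Fin r → StM P (i x), e = ∑ j, gO Y hx (c.f j) • b j := by
  have h := cn_ker i P x e he
  rw [ker_stalkMap c hx] at h
  exact exists_sum_of_mem_span _ _ h

/-- The sections of the ideal module given by the generators. -/
theorem exists_fI (j : Fin r) : ∃ s : SM (ClSub.idealMod i.ker) c.U, vl i.ker s = c.f j := by
  refine PerfA.IdealModule.exists_val_eq i.ker ⟨c.U, c.hU⟩ (a := c.f j) ?_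
  rw [c.hker]
  exact Ideal.subset_span ⟨j, rfl⟩

/-- The sections of the ideal module given by the generators. -/
noncomputable def fI (j : Fin r) : SM (ClSub.idealMod i.ker) c.U := (exists_fI c j).choose

theorem vl_fI (j : Fin r) : vl i.ker (fI c j) = c.f j := (exists_fI c j).choose_spec

theorem exists_eq_sum_fI {y : Y} (hy : y ∈ c.U) (t : StM (ClSub.idealMod i.ker) y) :
    ∃ a : Fin r → Y.presheaf.stalk y, t = ∑ j, a j • gm _ hy (fI c j) := by
  have h := vx_mem i.ker y ⟨c.U, c.hU⟩ hy t
  rw [c.hker, Ideal.map_span, ← Set.range_comp] at h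
  obtain ⟨a, ha⟩ := (Submodule.mem_span_range_iff_exists_fun _).mp h
  refine ⟨a, ?_⟩
  apply vx_injective
  rw [← ha, map_sum]
  refine Finset.sum_congr rfl fun j _ => ?_
  rw [map_smul, vx_gm, vl_fI]
  rfl

/-- The classes of the generators in the conormal module. -/
noncomputable def fN (j : Fin r) : SM (Omega.conormal i) (i ⁻¹ᵁ c.U) :=
  et i (ClSub.idealMod i.ker) c.U (fI c j)

variable [IsClosedImmersion i]

theorem eq_zero_of_sum {x : X} (hx : i x ∈ c.U) (b : Fin r → X.presheaf.stalk x)
    (hb : ∑ j, b j • gm (Omega.conormal i) (show x ∈ i ⁻¹ᵁ c.U from hx) (fN c j) = 0) : b = 0 := by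
  choose a ha using fun j => i.stalkMap_surjective x (b j)
  have h1 : cn i (ClSub.idealMod i.ker) x (∑ j, a j • gm _ hx (fI c j)) = 0 := by
    rw [map_sum]
    refine Eq.trans (Finset.sum_congr rfl fun j _ => ?_) hb
    rw [cn_smul, ha, cn_gm]
    rfl
  obtain ⟨e, he⟩ := cn_eq_zero c hx _ _ h1
  choose h hh using fun l => exists_eq_sum_fI c hx (e l)
  have h2 : ∑ j, (a j - ∑ l, gO Y hx (c.f l) * h l j) * gO Y hx (c.f j) = 0 := by
    have h3 := congrArg (vx i.ker (i x)) he
    rw [map_sum, map_sum] at h3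
    have h4 : ∀ j, vx i.ker (i x) (a j • gm _ hx (fI c j)) = a j * gO Y hx (c.f j) := by
      intro j
      rw [map_smul, vx_gm, vl_fI, smul_eq_mul]
    have h5 : ∀ l, vx i.ker (i x) (gO Y hx (c.f l) • e l) =
        ∑ j, gO Y hx (c.f l) * h l j * gO Y hx (c.f j) := by
      intro l
      rw [map_smul, hh, map_sum, Finset.smul_sum]
      refine Finset.sum_congr rfl fun j _ => ?_
      rw [map_smul, vx_gm, vl_fI, smul_eq_mul, smul_eq_mul, mul_assoc]
    simp only [h4, h5] at h3
    simp only [sub_mul, Finset.sum_sub_distrib, Finset.sum_mul]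
    rw [h3, Finset.sum_comm, sub_self]
  funext j
  have h6 := coeff_mem c hx _ h2 j
  have h7 : a j ∈ Ideal.span (Set.range (fun j => gO Y hx (c.f j))) := by
    rw [← sub_add_cancel (a j) (∑ l, gO Y hx (c.f l) * h l j)]
    exact Ideal.add_mem _ h6 (Ideal.sum_mem _ fun l _ => Ideal.mul_mem_right _ _ (Ideal.subset_span ⟨l, rfl⟩))
  rw [← ker_stalkMap c hx] at h7
  rw [← ha j]
  exact h7

theorem exists_eq_sum_fN {x : X} (hx : i x ∈ c.U) (t : StM (Omega.conormal i) x) :
    ∃ b : Fin r → X.presheaf.stalk x,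
      t = ∑ j, b j • gm (Omega.conormal i) (show x ∈ i ⁻¹ᵁ c.U from hx) (fN c j) := by
  obtain ⟨e, rfl⟩ := cn_surjective i (ClSub.idealMod i.ker) x t
  obtain ⟨a, rfl⟩ := exists_eq_sum_fI c hx e
  refine ⟨fun j => i.stalkMap x (a j), ?_⟩
  rw [map_sum]
  refine Finset.sum_congr rfl fun j _ => ?_
  rw [cn_smul, cn_gm]
  rfl

/-- The classes of the generators are a local basis of the conormal module. -/
theorem isLocBasis_fN : IsLocBasis (M := Omega.conormal i) (U := i ⁻¹ᵁ c.U) (fun j => fN c j) := by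
  have hgm : ∀ (V : X.Opens) (h : V ≤ i ⁻¹ᵁ c.U) (a : Fin r → Γ(X, V)) (x : X) (hx : x ∈ V),
      gm (Omega.conormal i) hx (comb (M := Omega.conormal i) (U := i ⁻¹ᵁ c.U) (fun j => fN c j) h a) =
        ∑ j, gO X hx (a j) • gm (Omega.conormal i) (h hx) (fN c j) := by
    intro V h a x hx
    have h1 : (comb (M := Omega.conormal i) (U := i ⁻¹ᵁ c.U) (fun j => fN c j) h a : SM (Omega.conormal i) V) =
        ∑ j, a j • rs (Omega.conormal i) h (fN c j) := rfl
    refine (congrArg (gm (Omega.conormal i) hx) h1).trans ?_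
    rw [map_sum]
    refine Finset.sum_congr rfl fun j _ => ?_
    rw [gm_smul, gm_rs]
  refine isLocBasis_of_locally' _ ?_ ?_
  · intro V h
    rw [← LinearMap.ker_eq_bot, LinearMap.ker_eq_bot']
    intro a ha
    funext j
    refine TopCat.Presheaf.section_ext X.sheaf V _ _ fun x hx => ?_
    have h1 := hgm V h a x hx
    rw [ha] at h1
    have h2 := eq_zero_of_sum c (x := x) (h hx) (fun j => gO X hx (a j)) (h1.symm.trans (map_zero _))
    have h3 := congrFun h2 j
    change gO X hx (a j) = gO X hx 0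
    rw [map_zero]
    exact h3
  · intro V h s x hx
    obtain ⟨b, hb⟩ := exists_eq_sum_fN c (x := x) (h hx) (gm (Omega.conormal i) hx (toSM s))
    choose W0 hW0 hyW0 b0 hb0 using fun j => (TopCat.Presheaf.exists_le_germ_eq X.presheaf (b j) hx)
    obtain ⟨W, hyW, hWV, hWW0⟩ := exists_common_nbhd V hx W0 hyW0
    have h1 : gm (Omega.conormal i) hyW (comb (M := Omega.conormal i) (U := i ⁻¹ᵁ c.U) (fun j => fN c j) (hWV.trans h)
        (fun j => resO X (hWW0 j) (b0 j))) = gm (Omega.conormal i) hyW (toSM (res _ hWV s)) := by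
      rw [hgm, ← rs_toSM, gm_rs, hb]
      refine Finset.sum_congr rfl fun j _ => ?_
      rw [gO_resO]
      congr 1
      exact hb0 j
    obtain ⟨W', hW', hyW', e⟩ := gm_eq (Omega.conormal i) hyW _ _ h1
    refine ⟨W', hW'.trans hWV, (hW'.trans hWV).trans h, hyW',
      fun j => resO X hW' (resO X (hWW0 j) (b0 j)), ?_⟩
    rw [← res_comb _ (hWV.trans h) hW']
    refine Eq.trans e ?_
    exact res_res _ _ _ _

end Groth.Agent.Dual.H376.ChartConormal
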