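import Groth.Agent.Dual.H376.DualBasis
import Groth.Agent.Sga67.ExtSheaf
import Groth.Agent.Sga2.PnHomAdj

/-!
# The determinant section of a top exterior power

For an `r`-th exterior power `L` of `N` and a family `b` of `r` sections of `N` over an affine open `U`, `gen φ b` is the section
`b_1 ∧ … ∧ b_r` of `L`; it is a local generator if `b` is a local basis, and it is multiplied by the determinant under a
change of basis.

`nN hb` is the local basis of `(DCoh.sheafHom C).obj O_X` dual to a local basis `b` of `C`.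
-/

set_option autoImplicit false

universe u

open CategoryTheory CategoryTheory.Limits AlgebraicGeometry Opposite TopologicalSpace
open Groth.Agent.Sga67 Groth.Agent.Sga67.Sec Groth.Agent.Sga67.LocBasis Groth.Agent.Sga67.ExtSheaf
  Groth.Agent.CohqB.HomSheaf Groth.Agent.Dual.H376.GlueGen Groth.Agent.Dual.H376.DualBasis

namespace Groth.Agent.Dual.H376.DetSec

variable {X : Scheme.{u}} {r : ℕ}

section Gen

variable {N L : X.Modules} (φ : Phi r N L)

/-- The section `b_1 ∧ … ∧ b_r`. -/
noncomputable def gen {U : X.affineOpens} (b : Fin r → Sec N U.1) : Sec L U.1 :=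
  (φ U).symm (exteriorPower.ιMulti _ r b)

theorem res_gen (hφ : PhiComp φ) {U V : X.affineOpens} (h : V.1 ≤ U.1) (b : Fin r → Sec N U.1) :
    res L h (gen φ b) = gen φ (U := V) (fun j => res N h (b j)) := hφ U V h b

theorem gen_change (hφ : PhiComp φ) {U V : X.affineOpens} (h : V.1 ≤ U.1) (b : Fin r → Sec N U.1)
    (b' : Fin r → Sec N V.1) (a : Matrix (Fin r) (Fin r) Γ(X, V.1)) (ha : ∀ k, b' k = ∑ j, a k j • res N h (b j)) :
    gen φ b' = a.det • res L h (gen φ b) := by
  rw [res_gen φ hφ h, gen, gen, ← map_smul]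
  congr 1
  have h1 : b' = fun k => ∑ j, a k j • res N h (b j) := funext ha
  rw [h1]
  exact AltDet.alt_det (exteriorPower.ιMulti Γ(X, V.1) r) (fun j => res N h (b j)) a

theorem isGen_gen (hφ : PhiComp φ) {U : X.affineOpens} {b : Fin r → Sec N U.1} (hb : IsLocBasis b) :
    IsGen (gen φ b) := by
  rw [isGen_iff]
  apply isLocBasis_of_locally
  intro x V hV hx
  obtain ⟨_, ⟨W, rfl⟩, hxW, hW⟩ := Opens.isBasis_iff_nbhd.mp (affineBasis X) hx
  refine ⟨W.1, hW.trans hV, hW, hxW, ?_⟩
  have h1 := AltDet.bijective_smul_ιMulti (hb.basis (hW.trans hV))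
  have h2 : (fun a : Γ(X, W.1) => a • res L (hW.trans hV) (gen φ b)) =
      (φ W).symm ∘ (fun a => a • exteriorPower.ιMulti Γ(X, W.1) r (hb.basis (hW.trans hV))) := by
    funext a
    rw [Function.comp_apply, map_smul, res_gen φ hφ (hW.trans hV), gen]
    congr 3
    funext j
    exact (IsLocBasis.basis_apply hb (hW.trans hV) j).symm
  have h3 : Function.Bijective (fun a : Γ(X, W.1) => a • res L (hW.trans hV) (gen φ b)) := by
    rw [h2]
    exact (φ W).symm.bijective.comp h1
  let ε : (Fin 1 → Γ(X, W.1)) ≃ Γ(X, W.1) := Equiv.funUnique (Fin 1) Γ(X, W.1)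
  have h4 : (comb (M := L) (fun _ : Fin 1 => gen φ b) (hW.trans hV) : (Fin 1 → Γ(X, W.1)) → Sec L W.1) =
      (fun a : Γ(X, W.1) => a • res L (hW.trans hV) (gen φ b)) ∘ ε := by
    funext a
    rw [Function.comp_apply, comb_apply, Fin.sum_univ_one]
    rfl
  rw [h4]
  exact h3.comp ε.bijective

end Gen

section Dual

variable (C : X.Modules) [DCoh.HasSheafHom C]

/-- The dual of `C`. -/
noncomputable abbrev dualMod : X.Modules := (DCoh.sheafHom C).obj (Coh.structureModule X)

/-- The dual of `C` is the explicit internal Hom. -/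
noncomputable def dualIso : homSheaf C (Coh.structureModule X) ≅ dualMod C :=
  ((Sga2.PnHomAdj.sheafHomIso C).app (Coh.structureModule X)).symm

variable {C} {κ : Type} [Fintype κ] {U : X.Opens} {b : κ → Sec C U} (hb : IsLocBasis b)

/-- The dual basis. -/
noncomputable def nN (j : κ) : Sec (dualMod C) U := appS (dualIso C).hom U (dsec hb j)

theorem isLocBasis_nN : IsLocBasis (M := dualMod C) (nN hb) := (isLocBasis_dsec hb).of_iso (dualIso C)

theorem nN_change {V : X.Opens} (h : V ≤ U) {κ' : Type} [Fintype κ'] {b' : κ' → Sec C V} (hb' : IsLocBasis b')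
    (a : κ → κ' → Γ(X, V)) (ha : ∀ j, res C h (b j) = ∑ k, a j k • b' k) (k : κ') :
    nN hb' k = ∑ j, a j k • res _ h (nN hb j) := by
  rw [nN, dsec_change hb h hb' a ha, map_sum]
  refine Finset.sum_congr rfl fun j _ => ?_
  rw [map_smul, appS_res]
  rfl

end Dual

section Om

variable {C : X.Modules} [DCoh.HasSheafHom C] {L : X.Modules} (φ : Phi r (dualMod C) L)

/-- The generator of the top exterior power of the dual attached to a local basis of `C`. -/
noncomputable def om {U : X.affineOpens} {b : Fin r → Sec C U.1} (hb : IsLocBasis b) : Sec L U.1 :=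
  gen φ (nN hb)

theorem isGen_om (hφ : PhiComp φ) {U : X.affineOpens} {b : Fin r → Sec C U.1} (hb : IsLocBasis b) :
    IsGen (om φ hb) := isGen_gen φ hφ (isLocBasis_nN hb)

theorem om_change (hφ : PhiComp φ) {U V : X.affineOpens} (h : V.1 ≤ U.1) {b : Fin r → Sec C U.1} (hb : IsLocBasis b)
    {b' : Fin r → Sec C V.1} (hb' : IsLocBasis b') (a : Matrix (Fin r) (Fin r) Γ(X, V.1))
    (ha : ∀ j, res C h (b j) = ∑ k, a j k • b' k) : om φ hb' = a.det • res L h (om φ hb) := by
  rw [om, om, ← Matrix.det_transpose]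
  refine gen_change φ hφ h _ _ a.transpose fun k => ?_
  exact nN_change hb h hb' (fun j k => a j k) ha k

end Om

end Groth.Agent.Dual.H376.DetSec
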