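import Groth.Agent.Dual.H376.ChartConormal
import Groth.Agent.Dual.H376.DetSec
import Groth.Agent.Flat2H.KoszulLoc
import Groth.Prelude.Def_Dual3

/-!
# Koszul charts: existence, comparison matrices, and the determinant sections

* `exists_chart`: a Koszul-regular closed immersion whose conormal module is locally free of rank `r` has charts
  `KChart i r` around every point of the source, inside any given open.
* `exists_matrix`, `res_bN`: comparison of charts.
* `nonempty_iso`: gluing of local generators `e c` of a module `T` transforming by determinants to an isomorphism with an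
  `r`-th exterior power of the dual of the conormal module.
-/

set_option autoImplicit false

universe u v w

open CategoryTheory CategoryTheory.Limits AlgebraicGeometry Opposite TopologicalSpace
open scoped TensorProduct
open Groth.Agent.Sga67 Groth.Agent.Sga67.Sec Groth.Agent.Sga67.LocBasis Groth.Agent.Sga67.KosAlt
  Groth.Agent.Sga67.KosStalk Groth.Agent.Sga67.KosImm Groth.Agent.Sga67.KosConormal
  Groth.Agent.Sga67.ExtSheaf
  Groth.Agent.Dual.H377.KChart Groth.Agent.Dual.H376.ChartConormal Groth.Agent.Dual.H376.GlueGen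
  Groth.Agent.Dual.H376.DetSec

namespace Groth.Agent.Dual.H376.ChartExist

variable {X Y : Scheme.{u}} {i : X ⟶ Y} {r r' : ℕ}

theorem vl_add (I : Y.IdealSheafData) {U : Y.Opens} (s t : SM (ClSub.idealMod I) U) :
    vl I (s + t) = vl I s + vl I t := (Groth.Agent.CohqB.FiniteType2.appLinear (ClSub.idealModι I) U).map_add s t

theorem vl_smul (I : Y.IdealSheafData) {U : Y.Opens} (r : Γ(Y, U)) (s : SM (ClSub.idealMod I) U) :
    vl I (r • s) = r * vl I s := PerfA.IdealModule.val_smul I r s

theorem vl_sum (I : Y.IdealSheafData) {U : Y.Opens} {κ : Type*} (t : Finset κ)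
    (s : κ → SM (ClSub.idealMod I) U) : vl I (∑ k ∈ t, s k) = ∑ k ∈ t, vl I (s k) := by
  classical
  induction t using Finset.induction_on with
  | empty => simp only [Finset.sum_empty]; exact vl_zero I
  | insert a t ha ih => rw [Finset.sum_insert ha, Finset.sum_insert ha, vl_add, ih]

/-- The matrix comparing the generators of two charts. -/
theorem exists_matrix (c : KChart i r) (c' : KChart i r') (h : c'.U ≤ c.U) :
    ∃ α : Matrix (Fin r) (Fin r') Γ(Y, c'.U), α.mulVec c'.f = fun j => resO Y h (c.f j) := by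
  have h1 : ∀ j, ∃ a : Fin r' → Γ(Y, c'.U), ∑ k, a k * c'.f k = resO Y h (c.f j) := by
    intro j
    have h2 : resO Y h (c.f j) ∈ i.ker.ideal ⟨c'.U, c'.hU⟩ := by
      have h3 := i.ker.map_ideal (U := ⟨c'.U, c'.hU⟩) (V := ⟨c.U, c.hU⟩) h
      rw [← h3]
      refine Ideal.mem_map_of_mem _ ?_
      rw [c.hker]
      exact Ideal.subset_span ⟨j, rfl⟩
    rw [c'.hker] at h2
    exact (Submodule.mem_span_range_iff_exists_fun _).mp h2
  choose a ha using h1
  exact ⟨Matrix.of a, funext fun j => ha j⟩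

theorem rs_fI (c : KChart i r) (c' : KChart i r') (h : c'.U ≤ c.U) (α : Matrix (Fin r) (Fin r') Γ(Y, c'.U))
    (hα : α.mulVec c'.f = fun j => resO Y h (c.f j)) (j : Fin r) :
    KosStalk.rs _ h (ChartConormal.fI c j) = ∑ k, α j k • ChartConormal.fI c' k := by
  apply vl_injective i.ker
  rw [vl_rs, ChartConormal.vl_fI, vl_sum]
  have h1 : resO Y h (c.f j) = ∑ k, α j k * c'.f k := (congrFun hα j).symm
  rw [h1]
  refine Finset.sum_congr rfl fun k _ => ?_
  rw [vl_smul, ChartConormal.vl_fI]

theorem rs_fN (c : KChart i r) (c' : KChart i r') (h : c'.U ≤ c.U) (α : Matrix (Fin r) (Fin r') Γ(Y, c'.U))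
    (hα : α.mulVec c'.f = fun j => resO Y h (c.f j)) (j : Fin r) :
    KosStalk.rs (Omega.conormal i) (i.preimage_mono h) (ChartConormal.fN c j) =
      ∑ k, i.app c'.U (α j k) • ChartConormal.fN c' k := by
  refine (et_rs i (ClSub.idealMod i.ker) h (ChartConormal.fI c j)).symm.trans ?_
  rw [rs_fI c c' h α hα, map_sum]
  refine Finset.sum_congr rfl fun k _ => ?_
  rw [et_smul]
  rfl

variable [IsClosedImmersion i]

variable (i) in
/-- The affine open of `X` given by an affine open of `Y`. -/
def affI (U : Y.Opens) (hU : IsAffineOpen U) : X.affineOpens := ⟨i ⁻¹ᵁ U, hU.preimage i⟩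

/-- The affine open of `X` given by a chart. -/
abbrev aff (c : KChart i r) : X.affineOpens := affI i c.U c.hU

/-- The basis of the conormal module over a chart. -/
noncomputable def bN (c : KChart i r) (j : Fin r) : Sec (Omega.conormal i) (aff c).1 := ChartConormal.fN c j

theorem isLocBasis_bN (c : KChart i r) : IsLocBasis (bN c) := ChartConormal.isLocBasis_fN c

theorem res_bN (c : KChart i r) (c' : KChart i r') (h : c'.U ≤ c.U) (α : Matrix (Fin r) (Fin r') Γ(Y, c'.U))
    (hα : α.mulVec c'.f = fun j => resO Y h (c.f j)) (j : Fin r) :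
    res (Omega.conormal i) (U := (aff c).1) (V := (aff c').1) (i.preimage_mono h) (bN c j) =
      ∑ k, (show Γ(X, (aff c').1) from i.app c'.U (α j k)) • bN c' k := rs_fN c c' h α hα j

omit [IsClosedImmersion i] in
/-- Two local bases over a nonempty open have the same number of elements. -/
theorem card_eq {M : X.Modules} {U V : X.Opens} {m n : ℕ} {b : Fin m → Sec M U} {b' : Fin n → Sec M V}
    (hb : IsLocBasis b) (hb' : IsLocBasis b') (x : X) (hx : x ∈ U) (hx' : x ∈ V) : m = n := by
  let W : X.Opens := U ⊓ V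
  have hW : Nonempty W := ⟨⟨x, hx, hx'⟩⟩
  have h1 := Module.finrank_eq_card_basis (hb.basis (V := W) inf_le_left)
  have h2 := Module.finrank_eq_card_basis (hb'.basis (V := W) inf_le_right)
  rw [Fintype.card_fin] at h1 h2
  exact h1.symm.trans h2

/-- The length of a chart is the rank of the conormal module. -/
theorem length_eq (hC : FlatMod.IsFinLocFreeOfRank r (Omega.conormal i)) (c : KChart i r') (x : X)
    (hx : i x ∈ c.U) : r' = r := by
  obtain ⟨U, hxU, hU⟩ := hC x
  obtain ⟨b, hb⟩ := nonempty_restrict_iso_iff.mp hU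
  exact card_eq (isLocBasis_bN c) hb x hx hxU

theorem notMem_primeIdealOf_iff {U : Y.Opens} (hU : IsAffineOpen U) (y : U) (g : Γ(Y, U)) :
    g ∉ (hU.primeIdealOf y).asIdeal ↔ y.1 ∈ Y.basicOpen g := by
  rw [hU.primeIdealOf_eq_map_closedPoint y]
  change Y.presheaf.germ U y.1 y.2 g ∉ IsLocalRing.maximalIdeal _ ↔ _
  rw [IsLocalRing.notMem_maximalIdeal]
  exact (Y.mem_basicOpen g y.1 y.2).symm

theorem ker_le_primeIdealOf {U : Y.Opens} (hU : IsAffineOpen U) (x : X) (hx : i x ∈ U) :
    i.ker.ideal ⟨U, hU⟩ ≤ (hU.primeIdealOf ⟨i x, hx⟩).asIdeal := by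
  intro a ha
  by_contra hcon
  rw [notMem_primeIdealOf_iff, Y.mem_basicOpen a (i x) hx] at hcon
  rw [Scheme.Hom.ker_apply] at ha
  have ha' : i.app U a = 0 := ha
  have h1 : IsUnit (i.stalkMap x (Y.presheaf.germ U (i x) hx a)) := hcon.map (i.stalkMap x).hom
  rw [Scheme.Hom.germ_stalkMap_apply, ha', map_zero] at h1
  exact not_isUnit_zero h1

omit [IsClosedImmersion i] in
/-- The chart attached to a Koszul-regular sequence of sections over an affine open. -/
theorem exists_kchart_of_seq (U : Y.Opens) (hU : IsAffineOpen U) (l : List Γ(Y, U))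
    (hl : LCI.IsKoszulRegularSeq Γ(Y, U) l) (hk : i.ker.ideal ⟨U, hU⟩ = Ideal.span {x | x ∈ l}) :
    ∃ c : KChart i l.length, c.U = U := by
  refine ⟨⟨U, hU, l.get, ?_, fun k z hz => KosBridge.exists_curryLeft_eq hl k z hz⟩, rfl⟩
  rw [hk]
  congr 1
  ext a
  simp only [Set.mem_ofPred_eq, Set.mem_range]
  exact List.mem_iff_get

/-- Existence of charts. -/
theorem exists_chart (hi : Dual3.IsKoszulRegularImmersion i)
    (hC : FlatMod.IsFinLocFreeOfRank r (Omega.conormal i)) (x : X) (W : Y.Opens) (hW : i x ∈ W) :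
    ∃ c : KChart i r, i x ∈ c.U ∧ c.U ≤ W := by
  obtain ⟨_, ⟨V, rfl⟩, hxV, hVW⟩ := Opens.isBasis_iff_nbhd.mp (affineBasis Y) hW
  obtain ⟨g, hg, l, hl, hlk⟩ := hi.2 V (V.2.primeIdealOf ⟨i x, hxV⟩) (ker_le_primeIdealOf V.2 x hxV)
  rw [notMem_primeIdealOf_iff] at hg
  have hU' : IsAffineOpen (Y.basicOpen g) := V.2.basicOpen g
  let ρ : Γ(Y, V.1) →+* Γ(Y, Y.basicOpen g) := (Y.presheaf.map (homOfLE (Y.basicOpen_le g)).op).hom
  let _ : Algebra Γ(Y, V.1) Γ(Y, Y.basicOpen g) := ρ.toAlgebra
  have hloc : IsLocalization.Away g Γ(Y, Y.basicOpen g) := V.2.isLocalization_basicOpen g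
  let e : Localization.Away g ≃ₐ[Γ(Y, V.1)] Γ(Y, Y.basicOpen g) :=
    IsLocalization.algEquiv (Submonoid.powers g) _ _
  have hk : i.ker.ideal ⟨Y.basicOpen g, hU'⟩ = Ideal.span {x | x ∈ l.map e} := by
    have h1 := i.ker.map_ideal (U := ⟨Y.basicOpen g, hU'⟩) (V := V) (Y.basicOpen_le g)
    rw [← h1]
    have h2 : (i.ker.ideal V).map ρ = ((i.ker.ideal V).map (algebraMap Γ(Y, V.1) (Localization.Away g))).map
        (e : Localization.Away g →+* Γ(Y, Y.basicOpen g)) := by
      rw [Ideal.map_map]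
      congr 1
      ext a
      exact (e.commutes a).symm
    refine h2.trans ?_
    rw [hlk, Ideal.map_span]
    congr 1
    ext a
    simp only [Set.mem_image, Set.mem_ofPred_eq, List.mem_map]
    rfl
  obtain ⟨c, hc⟩ := exists_kchart_of_seq (Y.basicOpen g) hU' (l.map e)
    ((Flat2H.KoszulLoc.isKoszulRegularSeq_map_ringEquiv_iff e.toRingEquiv l).mpr hl) hk
  have hx : i x ∈ c.U := by rw [hc]; exact hg
  have hr := length_eq hC c x hx
  have hle : c.U ≤ W := by rw [hc]; exact (Y.basicOpen_le g).trans hVW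
  generalize (l.map e).length = n at c hr hx hle
  subst hr
  exact ⟨c, hx, hle⟩

omit [IsClosedImmersion i] in
/-- Opens of `X` are preimages of opens of `Y`, locally. -/
theorem exists_open_preimage [IsClosedImmersion i] {V : X.Opens} {x : X} (hx : x ∈ V) :
    ∃ O : Y.Opens, i x ∈ O ∧ i ⁻¹ᵁ O ≤ V := by
  obtain ⟨O, hO, hOV⟩ := i.isClosedEmbedding.isInducing.isOpen_iff.mp V.2
  refine ⟨⟨O, hO⟩, ?_, ?_⟩
  · change x ∈ i ⁻¹' O
    rw [hOV]
    exact hx
  · intro y hy
    have h1 : y ∈ i ⁻¹' O := hy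
    rw [hOV] at h1
    exact h1

/-- The charts give a basis of the topology. -/
theorem isBasis_charts (hi : Dual3.IsKoszulRegularImmersion i)
    (hC : FlatMod.IsFinLocFreeOfRank r (Omega.conormal i)) :
    Opens.IsBasis (Set.range (fun c : KChart i r => i ⁻¹ᵁ c.U)) := by
  rw [Opens.isBasis_iff_nbhd]
  intro V x hx
  obtain ⟨O, hO, hOV⟩ := exists_open_preimage (i := i) hx
  obtain ⟨c, hc, hcO⟩ := exists_chart hi hC x O hO
  exact ⟨_, ⟨c, rfl⟩, hc, (i.preimage_mono hcO).trans hOV⟩

section Glue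

variable [DCoh.HasSheafHom (Omega.conormal i)] {L : X.Modules}

/-- The generator of the top exterior power of the normal module over a chart. -/
noncomputable def omC (φ : Phi r (dualMod (Omega.conormal i)) L) (c : KChart i r) : Sec L (aff c).1 :=
  om φ (U := aff c) (isLocBasis_bN c)

theorem isGen_omC (φ : Phi r (dualMod (Omega.conormal i)) L) (hφ : PhiComp φ) (c : KChart i r) :
    IsGen (omC φ c) := isGen_om φ hφ _

theorem omC_change (φ : Phi r (dualMod (Omega.conormal i)) L) (hφ : PhiComp φ) (c c' : KChart i r) (h : c'.U ≤ c.U)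
    (α : Matrix (Fin r) (Fin r) Γ(Y, c'.U)) (hα : α.mulVec c'.f = fun j => resO Y h (c.f j)) :
    omC φ c' = (show Γ(X, (aff c').1) from i.app c'.U α.det) •
      res L (U := (aff c).1) (V := (aff c').1) (i.preimage_mono h) (omC φ c) := by
  have h1 : (show Γ(X, (aff c').1) from i.app c'.U α.det) =
      (Matrix.of fun j k => (show Γ(X, (aff c').1) from i.app c'.U (α j k))).det :=
    RingHom.map_det (i.app c'.U).hom α
  rw [h1]
  exact om_change φ hφ (U := aff c) (V := aff c') (i.preimage_mono h) (isLocBasis_bN c) (isLocBasis_bN c') _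
    (res_bN c c' h α hα)

/-- **Gluing**: a module with local generators over the charts transforming by determinants is the top exterior power
of the normal module. -/
theorem nonempty_iso (hi : Dual3.IsKoszulRegularImmersion i)
    (hC : FlatMod.IsFinLocFreeOfRank r (Omega.conormal i))
    (hL : ExtPow.IsExtPow r ((DCoh.sheafHom (Omega.conormal i)).obj (Coh.structureModule X)) L) (T : X.Modules)
    (e : ∀ c : KChart i r, Sec T (i ⁻¹ᵁ c.U)) (he : ∀ c, IsGen (e c))
    (h : ∀ (c c' : KChart i r) (h : c'.U ≤ c.U) (α : Matrix (Fin r) (Fin r) Γ(Y, c'.U)),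
      (α.mulVec c'.f = fun j => resO Y h (c.f j)) →
      e c' = i.app c'.U α.det • res T (i.preimage_mono h) (e c)) : Nonempty (T ≅ L) := by
  obtain ⟨φ, hφ⟩ := exists_phi hL
  refine nonempty_iso_of_gens (fun c : KChart i r => i ⁻¹ᵁ c.U) ?_ T L e (fun c => omC φ c) he
    (fun c => isGen_omC φ hφ c) ?_
  · intro x
    obtain ⟨c, hc, -⟩ := exists_chart hi hC x ⊤ (Opens.mem_top _)
    exact ⟨c, hc⟩
  · intro c c₂ x hx hx₂
    obtain ⟨c', hc', hle⟩ := exists_chart hi hC x (c.U ⊓ c₂.U) ⟨hx, hx₂⟩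
    obtain ⟨α, hα⟩ := exists_matrix c c' (hle.trans inf_le_left)
    obtain ⟨β, hβ⟩ := exists_matrix c₂ c' (hle.trans inf_le_right)
    have e1 := h c c' (hle.trans inf_le_left) α hα
    have e2 := h c₂ c' (hle.trans inf_le_right) β hβ
    have l1 := omC_change φ hφ c c' (hle.trans inf_le_left) α hα
    have l2 := omC_change φ hφ c₂ c' (hle.trans inf_le_right) β hβ
    -- the determinant of `α` is invertible
    have hu : ∀ a : Γ(X, i ⁻¹ᵁ c'.U), e c' = a • res T (i.preimage_mono (hle.trans inf_le_left)) (e c) →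
        IsUnit a := by
      intro a ha
      obtain ⟨b, hb⟩ := (he c' (i ⁻¹ᵁ c'.U) le_rfl).2 (res T (i.preimage_mono (hle.trans inf_le_left)) (e c))
      have h3 : (b * a) • res T (i.preimage_mono (hle.trans inf_le_left)) (e c) =
          (1 : Γ(X, i ⁻¹ᵁ c'.U)) • res T (i.preimage_mono (hle.trans inf_le_left)) (e c) := by
        rw [mul_smul, ← ha, one_smul]
        beta_reduce at hb
        rw [res_self] at hb
        exact hb
      have h4 := (he c (i ⁻¹ᵁ c'.U) (i.preimage_mono (hle.trans inf_le_left))).1 h3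
      exact IsUnit.of_mul_eq_one_right b h4
    obtain ⟨u, hu⟩ := hu _ e1
    refine ⟨i ⁻¹ᵁ c'.U, i.preimage_mono (hle.trans inf_le_left), i.preimage_mono (hle.trans inf_le_right),
      (↑u⁻¹ : Γ(X, i ⁻¹ᵁ c'.U)) * i.app c'.U β.det, hc', ?_, ?_⟩
    · rw [mul_smul, ← e2, e1, ← hu, smul_smul, Units.inv_mul, one_smul]
    · rw [mul_smul]
      have l2' : omC φ c' = i.app c'.U β.det • res L (i.preimage_mono (hle.trans inf_le_right)) (omC φ c₂) := l2
      have l1' : omC φ c' = i.app c'.U α.det • res L (i.preimage_mono (hle.trans inf_le_left)) (omC φ c) := l1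
      rw [← l2', l1', ← hu, smul_smul, Units.inv_mul, one_smul]

end Glue

end Groth.Agent.Dual.H376.ChartExist
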