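import Groth.Agent.Dual.H377.KChart
import Groth.Agent.Sga67.Sec
import Mathlib.Algebra.Homology.CochainComplexPlus

/-!
# Data on a complex of `O_Y`-modules over the Koszul charts of a closed immersion

`ExtData i r I`: over every Koszul chart `c`, the torsion cocycles of `I` in degrees `≠ r` are boundaries of torsion elements,
and in degree `r` they are generated modulo such boundaries by a class `z` (`IsCls c z`), transforming by determinants.
-/

set_option autoImplicit false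

universe u

open CategoryTheory CategoryTheory.Limits AlgebraicGeometry Opposite TopologicalSpace
open Groth.Agent.Sga67.Sec Groth.Agent.Dual.H377.KChart

namespace Groth.Agent.Dual.H376.ExtData

variable {X Y : Scheme.{u}} {i : X ⟶ Y} {r : ℕ}

/-- The section `x` is killed by the generators of the ideal. -/
def Tors (c : KChart i r) {F : Y.Modules} (x : Sec F c.U) : Prop := ∀ k, c.f k • x = 0

variable (i r) in
/-- Data over the Koszul charts. -/
structure ExtData (I : CochainComplex Y.Modules ℤ) where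
  van : ∀ (c : KChart i r) (p j : ℤ), p + 1 = j → j ≠ (r : ℤ) → ∀ x : Sec (I.X j) c.U, Tors c x →
    appS (I.d j (j + 1)) c.U x = 0 → ∃ y : Sec (I.X p) c.U, Tors c y ∧ appS (I.d p j) c.U y = x
  /-- the class -/
  IsCls : ∀ c : KChart i r, Sec (I.X (r : ℤ)) c.U → Prop
  exists_cls : ∀ c : KChart i r, ∃ z, IsCls c z
  tors : ∀ (c : KChart i r) (z : Sec (I.X (r : ℤ)) c.U), IsCls c z → Tors c z
  cocyc : ∀ (c : KChart i r) (z : Sec (I.X (r : ℤ)) c.U), IsCls c z → appS (I.d (r : ℤ) ((r : ℤ) + 1)) c.U z = 0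
  gen : ∀ (c : KChart i r) (z : Sec (I.X (r : ℤ)) c.U), IsCls c z → ∀ (p : ℤ), p + 1 = (r : ℤ) →
    ∀ x : Sec (I.X (r : ℤ)) c.U, Tors c x → appS (I.d (r : ℤ) ((r : ℤ) + 1)) c.U x = 0 →
      ∃ (a : Γ(Y, c.U)) (y : Sec (I.X p) c.U), Tors c y ∧ x = a • z + appS (I.d p (r : ℤ)) c.U y
  inj : ∀ (c : KChart i r) (z : Sec (I.X (r : ℤ)) c.U), IsCls c z → ∀ (p : ℤ), p + 1 = (r : ℤ) →
    ∀ (a : Γ(Y, c.U)) (y : Sec (I.X p) c.U), Tors c y → a • z = appS (I.d p (r : ℤ)) c.U y →
      a ∈ Ideal.span (Set.range c.f)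
  change : ∀ (c c' : KChart i r) (h : c'.U ≤ c.U) (α : Matrix (Fin r) (Fin r) Γ(Y, c'.U)),
    (α.mulVec c'.f = fun j => resO Y h (c.f j)) → ∀ z : Sec (I.X (r : ℤ)) c.U, IsCls c z →
      IsCls c' (α.det • res (I.X (r : ℤ)) h z)
  unique : ∀ (c : KChart i r) (z z' : Sec (I.X (r : ℤ)) c.U), IsCls c z → IsCls c z' → ∀ (p : ℤ), p + 1 = (r : ℤ) →
    ∃ y : Sec (I.X p) c.U, Tors c y ∧ z - z' = appS (I.d p (r : ℤ)) c.U y

end Groth.Agent.Dual.H376.ExtData
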