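import Groth.Agent.Sga67.Sec
import Mathlib.Algebra.Homology.ShortComplex.HomologicalComplex
import Mathlib.Algebra.Homology.CochainComplexPlus

/-!
# Sections of the homology of a complex of sheaves of modules

`Cl E j z τ`: the section `τ` of `E.homology j` over `V` is the class of the cocycle `z`.
-/

set_option autoImplicit false

universe u

open CategoryTheory CategoryTheory.Limits AlgebraicGeometry Opposite TopologicalSpace
open Groth.Agent.Sga67.Sec

namespace Groth.Agent.Dual.H376.HomSec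

variable {X : Scheme.{u}} (E : CochainComplex X.Modules ℤ)

/-- The section `τ` of the homology is the class of the cocycle `z`. -/
def Cl (j : ℤ) {V : X.Opens} (z : Sec (E.X j) V) (τ : Sec (E.homology j) V) : Prop :=
  ∃ t : Sec (E.cycles j) V, appS (E.iCycles j) V t = z ∧ appS (E.homologyπ j) V t = τ

variable {E} {j : ℤ} {V : X.Opens}

theorem Cl.res {z : Sec (E.X j) V} {τ : Sec (E.homology j) V} (h : Cl E j z τ) {W : X.Opens} (hW : W ≤ V) :
    Cl E j (res _ hW z) (res _ hW τ) := by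
  obtain ⟨t, rfl, rfl⟩ := h
  exact ⟨Groth.Agent.Sga67.Sec.res _ hW t, appS_res _ _ _, appS_res _ _ _⟩

theorem Cl.add {z z' : Sec (E.X j) V} {τ τ' : Sec (E.homology j) V} (h : Cl E j z τ) (h' : Cl E j z' τ') :
    Cl E j (z + z') (τ + τ') := by
  obtain ⟨t, rfl, rfl⟩ := h
  obtain ⟨t', rfl, rfl⟩ := h'
  exact ⟨t + t', map_add _ _ _, map_add _ _ _⟩

theorem Cl.sub {z z' : Sec (E.X j) V} {τ τ' : Sec (E.homology j) V} (h : Cl E j z τ) (h' : Cl E j z' τ') :
    Cl E j (z - z') (τ - τ') := by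
  obtain ⟨t, rfl, rfl⟩ := h
  obtain ⟨t', rfl, rfl⟩ := h'
  exact ⟨t - t', map_sub _ _ _, map_sub _ _ _⟩

theorem Cl.smul {z : Sec (E.X j) V} {τ : Sec (E.homology j) V} (h : Cl E j z τ) (a : Γ(X, V)) :
    Cl E j (a • z) (a • τ) := by
  obtain ⟨t, rfl, rfl⟩ := h
  exact ⟨a • t, map_smul _ _ _, map_smul _ _ _⟩

theorem Cl.unique {z : Sec (E.X j) V} {τ τ' : Sec (E.homology j) V} (h : Cl E j z τ) (h' : Cl E j z τ') :
    τ = τ' := by
  obtain ⟨t, rfl, rfl⟩ := h
  obtain ⟨t', h1, rfl⟩ := h'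
  rw [injective_of_mono (E.iCycles j) V h1]

theorem Cl.d_eq_zero {z : Sec (E.X j) V} {τ : Sec (E.homology j) V} (h : Cl E j z τ) (n : ℤ) :
    appS (E.d j n) V z = 0 := by
  obtain ⟨t, rfl, -⟩ := h
  rw [← appS_comp, E.iCycles_d, appS_zero]

theorem exists_cl {n : ℤ} (hn : j + 1 = n) {z : Sec (E.X j) V} (h : appS (E.d j n) V z = 0) : ∃ τ, Cl E j z τ := by
  have hex : (ShortComplex.mk (E.iCycles j) (E.d j n) (E.iCycles_d j n)).Exact :=
    ShortComplex.exact_of_f_is_kernel _ (E.cyclesIsKernel j n (by simp [hn]))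
  obtain ⟨t, rfl⟩ := exists_of_appS_eq_zero hex z h
  exact ⟨_, t, rfl, rfl⟩

theorem cl_boundary (p : ℤ) (b : Sec (E.X p) V) : Cl E j (appS (E.d p j) V b) 0 := by
  refine ⟨appS (E.toCycles p j) V b, ?_, ?_⟩
  · rw [← appS_comp, E.toCycles_i]
  · rw [← appS_comp, E.toCycles_comp_homologyπ, appS_zero]

theorem Cl.exists_boundary {p : ℤ} (hp : p + 1 = j) {z : Sec (E.X j) V} (h : Cl E j z 0) (x : X) (hx : x ∈ V) :
    ∃ (W : X.Opens) (hW : W ≤ V), x ∈ W ∧ ∃ b : Sec (E.X p) W, appS (E.d p j) W b = Groth.Agent.Sga67.Sec.res _ hW z := by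
  obtain ⟨t, rfl, h0⟩ := h
  have hex : (ShortComplex.mk (E.toCycles p j) (E.homologyπ j) (E.toCycles_comp_homologyπ p j)).Exact :=
    ShortComplex.exact_of_g_is_cokernel _ (E.homologyIsCokernel p j (by simp [← hp]))
  obtain ⟨W, hW, hxW, b, hb⟩ := exists_locally_of_exact hex t h0 x hx
  refine ⟨W, hW, hxW, b, ?_⟩
  have hb' : appS (E.toCycles p j) W b = Groth.Agent.Sga67.Sec.res _ hW t := hb
  rw [← E.toCycles_i, appS_comp, hb', appS_res]

theorem exists_cl_locally (τ : Sec (E.homology j) V) (x : X) (hx : x ∈ V) :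
    ∃ (W : X.Opens) (hW : W ≤ V), x ∈ W ∧ ∃ z : Sec (E.X j) W, Cl E j z (Groth.Agent.Sga67.Sec.res _ hW τ) := by
  obtain ⟨W, hW, hxW, t, ht⟩ := locally_surjective_of_epi (E.homologyπ j) τ x hx
  exact ⟨W, hW, hxW, appS (E.iCycles j) W t, t, rfl, ht⟩

/-- Vanishing of the homology from local vanishing of classes. -/
theorem isZero_homology (h : ∀ (x : X) (V : X.Opens) (z : Sec (E.X j) V), x ∈ V → appS (E.d j (j + 1)) V z = 0 →
      ∃ (W : X.Opens) (hW : W ≤ V), x ∈ W ∧ ∃ (p : ℤ) (b : Sec (E.X p) W), appS (E.d p j) W b = Groth.Agent.Sga67.Sec.res _ hW z) :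
    IsZero (E.homology j) := by
  rw [IsZero.iff_id_eq_zero]
  apply hom_ext
  intro V τ
  apply eq_of_locally
  intro x hx
  obtain ⟨W, hW, hxW, z, hz⟩ := exists_cl_locally τ x hx
  obtain ⟨W', hW', hxW', p, b, hb⟩ := h x W z hxW (hz.d_eq_zero _)
  refine ⟨W', hW'.trans hW, hxW', ?_⟩
  have h1 := cl_boundary (E := E) (j := j) p b
  rw [hb] at h1
  have h2 := (hz.res hW').unique h1
  rw [appS_zero, map_zero, appS_id, ← res_res _ hW hW']
  exact h2

end Groth.Agent.Dual.H376.HomSec
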