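import Groth.Agent.Dual.H376.ChartExist
import Groth.Agent.Dual.H376.ExtData
import Groth.Agent.Dual.H376.HomSec
import Groth.Agent.S3669

/-!
# The core of the computation of `RHom(O_X, O_Y)` for a Koszul-regular closed immersion

From `ExtData i r I` we compute the homology of `Hom(O_X, I)`: it vanishes in degrees `≠ r` and is the top exterior power of the
normal module in degree `r`.
-/

set_option autoImplicit false

universe u

open CategoryTheory CategoryTheory.Limits AlgebraicGeometry Opposite TopologicalSpace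
open Groth.Agent.Sga67 Groth.Agent.Sga67.Sec Groth.Agent.Sga67.LocBasis
  Groth.Agent.Dual.H377.KChart Groth.Agent.Dual.H376.GlueGen Groth.Agent.Dual.H376.ExtData
  Groth.Agent.Dual.H376.HomSec Groth.Agent.Dual.H376.ChartExist

namespace Groth.Agent.Dual.H376.Core

variable {X Y : Scheme.{u}} {i : X ⟶ Y} [Dual3.HasHomO i]

section Counit

/-- The counit `i_* Hom(O_X, F) ⟶ F` on sections. -/
noncomputable def ka (F : Y.Modules) (U : Y.Opens) : Sec ((Dual3.homO i).obj F) (i ⁻¹ᵁ U) →+ Sec F U :=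
  (((Dual3.homOAdj i).counit.app F).app U).hom

theorem ka_smul (F : Y.Modules) (U : Y.Opens) (a : Γ(Y, U)) (s : Sec ((Dual3.homO i).obj F) (i ⁻¹ᵁ U)) :
    ka F U (i.app U a • s) = a • ka F U s := by
  exact ((Dual3.homOAdj i).counit.app F).app_smul a s

theorem ka_res (F : Y.Modules) {U V : Y.Opens} (h : V ≤ U) (s : Sec ((Dual3.homO i).obj F) (i ⁻¹ᵁ U)) :
    ka F V (res _ (i.preimage_mono h) s) = res F h (ka F U s) := by
  exact appS_res ((Dual3.homOAdj i).counit.app F) h s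

theorem ka_map {F G : Y.Modules} (φ : F ⟶ G) (U : Y.Opens) (s : Sec ((Dual3.homO i).obj F) (i ⁻¹ᵁ U)) :
    ka G U (appS ((Dual3.homO i).map φ) (i ⁻¹ᵁ U) s) = appS φ U (ka F U s) := by
  have h := (Dual3.homOAdj i).counit.naturality φ
  exact ConcreteCategory.congr_hom (congrArg (fun k => Scheme.Modules.Hom.app k U) h) s

variable [IsClosedImmersion i]

theorem ka_injective (F : Y.Modules) (U : Y.Opens) : Function.Injective (ka (i := i) F U) := by
  have := S3669.mono_counit i F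
  exact injective_of_mono ((Dual3.homOAdj i).counit.app F) U

theorem tors_ka {r : ℕ} (c : KChart i r) (F : Y.Modules) (s : Sec ((Dual3.homO i).obj F) (i ⁻¹ᵁ c.U)) :
    Tors c (ka F c.U s) := by
  intro k
  rw [← ka_smul, ChartConormal.app_f, zero_smul, map_zero]

omit [Dual3.HasHomO i] [IsClosedImmersion i] in
theorem smul_eq_zero_of_mem_span {A : Type*} [CommRing A] {M : Type*} [AddCommGroup M] [Module A M] {n : ℕ}
    (f : Fin n → A) (s : M) (h : ∀ k, f k • s = 0) (a : A) (ha : a ∈ Ideal.span (Set.range f)) : a • s = 0 := by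
  induction ha using Submodule.span_induction with
  | mem a ha =>
    obtain ⟨k, rfl⟩ := ha
    exact h k
  | zero => exact zero_smul _ _
  | add a b _ _ h1 h2 => rw [add_smul, h1, h2, add_zero]
  | smul a b _ h => rw [smul_eq_mul, mul_smul, h, smul_zero]

theorem exists_ka {r : ℕ} (c : KChart i r) {F : Y.Modules} {s : Sec F c.U} (hs : Tors c s) :
    ∃ t, ka (i := i) F c.U t = s := by
  refine ((S3669.main i F ⟨c.U, c.hU⟩).2 s).mpr ?_
  intro a ha
  rw [c.hker] at ha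
  exact smul_eq_zero_of_mem_span c.f s hs a ha

end Counit

section Main

variable [IsClosedImmersion i] {r : ℕ} {I : CochainComplex Y.Modules ℤ} (D : ExtData i r I)

variable (i I) in
/-- `Hom(O_X, I)`. -/
noncomputable abbrev EE : CochainComplex X.Modules ℤ :=
  ((Dual3.homO i).mapHomologicalComplex (ComplexShape.up ℤ)).obj I

/-- The counit on sections of the complex. -/
noncomputable def kE (j : ℤ) (U : Y.Opens) : Sec ((EE i I).X j) (i ⁻¹ᵁ U) →+ Sec (I.X j) U := ka (I.X j) U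

omit [IsClosedImmersion i] in
theorem kE_d (p j : ℤ) (U : Y.Opens) (s : Sec ((EE i I).X p) (i ⁻¹ᵁ U)) :
    kE (I := I) j U (appS ((EE i I).d p j) (i ⁻¹ᵁ U) s) = appS (I.d p j) U (kE p U s) := ka_map (I.d p j) U s

omit [IsClosedImmersion i] in
theorem kE_smul (j : ℤ) (U : Y.Opens) (a : Γ(Y, U)) (s : Sec ((EE i I).X j) (i ⁻¹ᵁ U)) :
    kE (I := I) j U (i.app U a • s) = a • kE j U s := ka_smul (I.X j) U a s

omit [IsClosedImmersion i] in
theorem kE_res (j : ℤ) {U V : Y.Opens} (h : V ≤ U) (s : Sec ((EE i I).X j) (i ⁻¹ᵁ U)) :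
    kE (I := I) j V (res _ (i.preimage_mono h) s) = res (I.X j) h (kE j U s) := ka_res (I.X j) h s

theorem kE_injective (j : ℤ) (U : Y.Opens) : Function.Injective (kE (i := i) (I := I) j U) := ka_injective (I.X j) U

theorem tors_kE (c : KChart i r) (j : ℤ) (s : Sec ((EE i I).X j) (i ⁻¹ᵁ c.U)) : Tors c (kE (I := I) j c.U s) :=
  tors_ka c (I.X j) s

theorem exists_kE (c : KChart i r) {j : ℤ} {s : Sec (I.X j) c.U} (hs : Tors c s) :
    ∃ t, kE (i := i) (I := I) j c.U t = s := exists_ka c hs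

include D in
/-- Vanishing in degrees `≠ r`. -/
theorem isZero_homology (hi : Dual3.IsKoszulRegularImmersion i)
    (hC : FlatMod.IsFinLocFreeOfRank r (Omega.conormal i)) (j : ℤ) (hj : j ≠ (r : ℤ)) :
    IsZero ((EE i I).homology j) := by
  apply HomSec.isZero_homology
  intro x V z hx hz
  obtain ⟨O, hO, hOV⟩ := exists_open_preimage (i := i) hx
  obtain ⟨c, hc, hcO⟩ := exists_chart hi hC x O hO
  have hcV : i ⁻¹ᵁ c.U ≤ V := (i.preimage_mono hcO).trans hOV
  obtain ⟨y, hy, hdy⟩ := D.van c (j - 1) j (by omega) hj (kE j c.U (res _ hcV z)) (tors_kE c j _) (by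
    rw [← kE_d, appS_res, hz, map_zero, map_zero])
  obtain ⟨b, rfl⟩ := exists_kE c hy
  refine ⟨i ⁻¹ᵁ c.U, hcV, hc, j - 1, b, ?_⟩
  apply kE_injective
  rw [kE_d]
  exact hdy

/-- `τ` is the class over the chart `c`. -/
def Rel (c : KChart i r) (τ : Sec ((EE i I).homology (r : ℤ)) (i ⁻¹ᵁ c.U)) : Prop :=
  ∃ w : Sec ((EE i I).X (r : ℤ)) (i ⁻¹ᵁ c.U), D.IsCls c (kE (r : ℤ) c.U w) ∧ Cl (EE i I) (r : ℤ) w τ

theorem exists_rel (c : KChart i r) : ∃ τ, Rel D c τ := by
  obtain ⟨z, hz⟩ := D.exists_cls c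
  obtain ⟨w, rfl⟩ := exists_kE c (D.tors c z hz)
  obtain ⟨τ, hτ⟩ := exists_cl (E := EE i I) (j := (r : ℤ)) (n := (r : ℤ) + 1) rfl (z := w) (by
    apply kE_injective
    rw [kE_d, map_zero]
    exact D.cocyc c _ hz)
  exact ⟨τ, w, hz, hτ⟩

variable {D}

theorem Rel.unique {c : KChart i r} {τ τ' : Sec ((EE i I).homology (r : ℤ)) (i ⁻¹ᵁ c.U)} (h : Rel D c τ)
    (h' : Rel D c τ') : τ = τ' := by
  obtain ⟨w, hw, hτ⟩ := h
  obtain ⟨w', hw', hτ'⟩ := h'
  obtain ⟨y, hy, hyd⟩ := D.unique c _ _ hw hw' ((r : ℤ) - 1) (by omega)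
  obtain ⟨b, rfl⟩ := exists_kE c hy
  have h1 : w - w' = appS ((EE i I).d ((r : ℤ) - 1) (r : ℤ)) _ b := by
    apply kE_injective
    rw [kE_d, map_sub]
    exact hyd
  have h2 := hτ.sub hτ'
  rw [h1] at h2
  exact sub_eq_zero.mp (h2.unique (cl_boundary _ b))

omit [IsClosedImmersion i] in
theorem Rel.change {c c' : KChart i r} {τ : Sec ((EE i I).homology (r : ℤ)) (i ⁻¹ᵁ c.U)} (h : Rel D c τ)
    (hU : c'.U ≤ c.U) (α : Matrix (Fin r) (Fin r) Γ(Y, c'.U)) (hα : α.mulVec c'.f = fun j => resO Y hU (c.f j)) :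
    Rel D c' (i.app c'.U α.det • res _ (i.preimage_mono hU) τ) := by
  obtain ⟨w, hw, hτ⟩ := h
  refine ⟨i.app c'.U α.det • res _ (i.preimage_mono hU) w, ?_, (hτ.res _).smul _⟩
  rw [kE_smul, kE_res]
  exact D.change c c' hU α hα _ hw

/-- Cocycles over a chart are multiples of the class. -/
theorem Rel.gen {c : KChart i r} {τ : Sec ((EE i I).homology (r : ℤ)) (i ⁻¹ᵁ c.U)} (h : Rel D c τ)
    {w' : Sec ((EE i I).X (r : ℤ)) (i ⁻¹ᵁ c.U)} {σ : Sec ((EE i I).homology (r : ℤ)) (i ⁻¹ᵁ c.U)}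
    (hσ : Cl (EE i I) (r : ℤ) w' σ) : ∃ a : Γ(Y, c.U), σ = i.app c.U a • τ := by
  obtain ⟨w, hw, hτ⟩ := h
  obtain ⟨a, y, hy, hyd⟩ := D.gen c _ hw ((r : ℤ) - 1) (by omega) (kE (r : ℤ) c.U w') (tors_kE c _ _) (by
    rw [← kE_d, hσ.d_eq_zero, map_zero])
  obtain ⟨b, rfl⟩ := exists_kE c hy
  refine ⟨a, ?_⟩
  have h1 : w' = i.app c.U a • w + appS ((EE i I).d ((r : ℤ) - 1) (r : ℤ)) _ b := by
    apply kE_injective
    rw [map_add, kE_d, kE_smul]
    exact hyd
  have h2 := (hτ.smul (i.app c.U a)).add (cl_boundary (E := EE i I) (j := (r : ℤ)) ((r : ℤ) - 1) b)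
  rw [← h1, add_zero] at h2
  exact hσ.unique h2

/-- A multiple of the class which is locally a boundary vanishes. -/
theorem Rel.inj {c : KChart i r} {w : Sec ((EE i I).X (r : ℤ)) (i ⁻¹ᵁ c.U)} (hw : D.IsCls c (kE (r : ℤ) c.U w))
    (a : Γ(Y, c.U)) (b : Sec ((EE i I).X ((r : ℤ) - 1)) (i ⁻¹ᵁ c.U))
    (hb : appS ((EE i I).d ((r : ℤ) - 1) (r : ℤ)) _ b = i.app c.U a • w) : i.app c.U a = 0 := by
  have h1 := D.inj c _ hw ((r : ℤ) - 1) (by omega) a (kE ((r : ℤ) - 1) c.U b) (tors_kE c _ _) (by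
    rw [← kE_smul, ← hb, kE_d])
  rw [← c.hker, Scheme.Hom.ker_apply] at h1
  exact h1

omit [Dual3.HasHomO i] [IsClosedImmersion i] in
theorem app_resO {U V : Y.Opens} (h : V ≤ U) (a : Γ(Y, U)) :
    i.app V (resO Y h a) = resO X (i.preimage_mono h) (i.app U a) :=
  congr($(i.naturality (homOfLE h).op) a)

theorem Rel.isGen {c : KChart i r} {τ : Sec ((EE i I).homology (r : ℤ)) (i ⁻¹ᵁ c.U)} (h : Rel D c τ)
    (hi : Dual3.IsKoszulRegularImmersion i) (hC : FlatMod.IsFinLocFreeOfRank r (Omega.conormal i)) : IsGen τ := by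
  -- smaller charts
  have key : ∀ (x : X) (V : X.Opens) (c₁ : KChart i r), x ∈ V → V ≤ i ⁻¹ᵁ c₁.U → ∃ c' : KChart i r, i x ∈ c'.U ∧
      c'.U ≤ c₁.U ∧ i ⁻¹ᵁ c'.U ≤ V := by
    intro x V c₁ hx hV
    obtain ⟨O, hO, hOV⟩ := exists_open_preimage (i := i) hx
    obtain ⟨c', hc', hle⟩ := exists_chart hi hC x (O ⊓ c₁.U) ⟨hO, hV hx⟩
    exact ⟨c', hc', hle.trans inf_le_right, (i.preimage_mono (hle.trans inf_le_left)).trans hOV⟩
  rw [isGen_iff]
  refine isLocBasis_of_locally' _ ?_ ?_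
  · intro V hV
    rw [← LinearMap.ker_eq_bot, LinearMap.ker_eq_bot']
    intro a ha
    rw [comb_apply, Fin.sum_univ_one] at ha
    funext k
    rw [Subsingleton.elim k 0]
    apply eqO_of_locally
    intro x hx
    obtain ⟨c', hc', hcc', hc'V⟩ := key x V c hx hV
    obtain ⟨α, hα⟩ := exists_matrix c c' hcc'
    obtain ⟨w', hw', hτ'⟩ := h.change hcc' α hα
    obtain ⟨a', ha'⟩ := i.app_surjective c'.U c'.hU (resO X hc'V (a 0))
    have h0 : i.app c'.U a' • (i.app c'.U α.det • res _ (i.preimage_mono hcc') τ) = 0 := by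
      have h1 := congrArg (res _ hc'V) ha
      rw [res_smul, res_res, map_zero] at h1
      rw [ha', smul_comm, h1, smul_zero]
    have h2 := hτ'.smul (i.app c'.U a')
    rw [h0] at h2
    obtain ⟨W, hW, hxW, b, hb⟩ := h2.exists_boundary (p := (r : ℤ) - 1) (by omega) x hc'
    obtain ⟨c₂, hc₂, hc₂c', hc₂W⟩ := key x W c' hxW hW
    obtain ⟨β, hβ⟩ := exists_matrix c' c₂ hc₂c'
    have h3 : D.IsCls c₂ (kE (r : ℤ) c₂.U (i.app c₂.U β.det • res _ (i.preimage_mono hc₂c') w')) := by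
      rw [kE_smul, kE_res]
      exact D.change c' c₂ hc₂c' β hβ _ hw'
    have h4 := Rel.inj h3 (resO Y hc₂c' a') (i.app c₂.U β.det • res _ hc₂W b) (by
      rw [map_smul, appS_res, hb, res_res, res_smul, ← app_resO hc₂c' a', smul_comm])
    refine ⟨i ⁻¹ᵁ c₂.U, (i.preimage_mono hc₂c').trans hc'V, hc₂, ?_⟩
    rw [app_resO, ha', resO_resO] at h4
    rw [h4]
    exact (map_zero _).symm
  · intro V hV s x hx
    obtain ⟨W, hW, hxW, z, hz⟩ := exists_cl_locally s x hx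
    obtain ⟨c', hc', hcc', hc'W⟩ := key x W c hxW (hW.trans hV)
    obtain ⟨α, hα⟩ := exists_matrix c c' hcc'
    obtain ⟨a, ha⟩ := (h.change hcc' α hα).gen (hz.res hc'W)
    refine ⟨i ⁻¹ᵁ c'.U, hc'W.trans hW, i.preimage_mono hcc', hc', fun _ => i.app c'.U a * i.app c'.U α.det, ?_⟩
    rw [comb_apply, Fin.sum_univ_one, mul_smul]
    refine ha.symm.trans ?_
    exact res_res _ _ _ _

variable (D) in
include D in
/-- **The core theorem.** -/
theorem core (hi : Dual3.IsKoszulRegularImmersion i)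
    (hC : FlatMod.IsFinLocFreeOfRank r (Omega.conormal i)) [DCoh.HasSheafHom (Omega.conormal i)] (L : X.Modules)
    (hL : ExtPow.IsExtPow r ((DCoh.sheafHom (Omega.conormal i)).obj (Coh.structureModule X)) L) :
    (∀ j : ℤ, j ≠ (r : ℤ) → IsZero ((EE i I).homology j)) ∧ Nonempty ((EE i I).homology (r : ℤ) ≅ L) := by
  refine ⟨fun j hj => isZero_homology D hi hC j hj, ?_⟩
  choose e he using fun c : KChart i r => exists_rel D c
  exact nonempty_iso hi hC hL _ e (fun c => (he c).isGen hi hC)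
    (fun c c' h α hα => (he c').unique ((he c).change h α hα))

end Main

end Groth.Agent.Dual.H376.Core
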