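import Groth.Agent.Dual.H376.GlueGen
import Groth.Agent.Dual.H376.AltDet
import Groth.Agent.CohqB.HomSheaf

/-!
# The dual local basis of the internal Hom into the structure sheaf

For a local basis `b` of `C` over `V`, `dsec hb j` is the section of `homSheaf C O_X` over `V` given by the `j`-th coordinate.
-/

set_option autoImplicit false

universe u

open CategoryTheory CategoryTheory.Limits AlgebraicGeometry Opposite TopologicalSpace
open Groth.Agent.Sga67 Groth.Agent.Sga67.Sec Groth.Agent.Sga67.LocBasis Groth.Agent.CohqB.HomSheaf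

namespace Groth.Agent.Dual.H376.DualBasis

variable {X : Scheme.{u}} {C : X.Modules} {κ : Type} [Fintype κ]

/-- Value of a section of the internal Hom into `O_X`. -/
noncomputable def evO {U : X.Opens} (s : Sec (homSheaf C (Coh.structureModule X)) U) {V : X.Opens} (h : V ≤ U) (m : Sec C V) :
    Γ(X, V) := toO (comp (M := C) (N := Coh.structureModule X) s V h m)

theorem evO_add {U : X.Opens} (s t : Sec (homSheaf C (Coh.structureModule X)) U) {V : X.Opens} (h : V ≤ U) (m : Sec C V) :
    evO (s + t) h m = evO s h m + evO t h m := rfl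

theorem evO_add_right {U : X.Opens} (s : Sec (homSheaf C (Coh.structureModule X)) U) {V : X.Opens} (h : V ≤ U) (m m' : Sec C V) :
    evO s h (m + m') = evO s h m + evO s h m' := by
  exact map_add (comp (M := C) (N := Coh.structureModule X) s V h) m m'

theorem evO_smul_right {U : X.Opens} (s : Sec (homSheaf C (Coh.structureModule X)) U) {V : X.Opens} (h : V ≤ U) (a : Γ(X, V))
    (m : Sec C V) : evO s h (a • m) = a * evO s h m := by
  exact map_smul (comp (M := C) (N := Coh.structureModule X) s V h) a m

theorem evO_smul {U : X.Opens} (a : Γ(X, U)) (s : Sec (homSheaf C (Coh.structureModule X)) U) {V : X.Opens} (h : V ≤ U)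
    (m : Sec C V) : evO (a • s) h m = resO X h a * evO s h m := rfl

theorem evO_zero {U V : X.Opens} (h : V ≤ U) (m : Sec C V) :
    evO (0 : Sec (homSheaf C (Coh.structureModule X)) U) h m = 0 := rfl

theorem evO_res {U W : X.Opens} (h : W ≤ U) (s : Sec (homSheaf C (Coh.structureModule X)) U) {V : X.Opens} (hV : V ≤ W)
    (m : Sec C V) : evO (res _ h s) hV m = evO s (hV.trans h) m := rfl

theorem evO_map {U V W : X.Opens} (s : Sec (homSheaf C (Coh.structureModule X)) U) (hV : V ≤ U) (h : W ≤ V) (m : Sec C V) :
    evO s (h.trans hV) (res C h m) = resO X h (evO s hV m) := by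
  exact comp_map (M := C) (N := Coh.structureModule X) s hV h m

theorem evO_sum_right {U : X.Opens} (s : Sec (homSheaf C (Coh.structureModule X)) U) {V : X.Opens} (h : V ≤ U)
    {ι : Type*} (t : Finset ι) (m : ι → Sec C V) : evO s h (∑ j ∈ t, m j) = ∑ j ∈ t, evO s h (m j) := by
  classical
  induction t using Finset.induction_on with
  | empty =>
    simp only [Finset.sum_empty]
    exact map_zero (comp (M := C) (N := Coh.structureModule X) s V h)
  | insert a t ha ih => rw [Finset.sum_insert ha, Finset.sum_insert ha, evO_add_right, ih]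

theorem evO_sum {U : X.Opens} {ι : Type*} (t : Finset ι) (s : ι → Sec (homSheaf C (Coh.structureModule X)) U)
    {V : X.Opens} (h : V ≤ U) (m : Sec C V) : evO (∑ j ∈ t, s j) h m = ∑ j ∈ t, evO (s j) h m := by
  classical
  induction t using Finset.induction_on with
  | empty =>
    simp only [Finset.sum_empty]
    exact evO_zero h m
  | insert a t ha ih => rw [Finset.sum_insert ha, Finset.sum_insert ha, evO_add, ih]

theorem evO_ext {U : X.Opens} {s t : Sec (homSheaf C (Coh.structureModule X)) U}
    (H : ∀ (V : X.Opens) (h : V ≤ U) (m : Sec C V), evO s h m = evO t h m) : s = t :=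
  sec_ext (M := C) (N := Coh.structureModule X) H

section Basis

variable {U : X.Opens} {b : κ → Sec C U} (hb : IsLocBasis b)

/-- The coordinates of a section. -/
noncomputable def cd {V : X.Opens} (h : V ≤ U) : Sec C V →ₗ[Γ(X, V)] (κ → Γ(X, V)) :=
  (hb.basis h).equivFun.toLinearMap

theorem sum_cd {V : X.Opens} (h : V ≤ U) (m : Sec C V) : ∑ j, cd hb h m j • res C h (b j) = m := by
  have h1 := (hb.basis h).sum_equivFun m
  simp only [IsLocBasis.basis_apply] at h1
  exact h1

theorem eq_cd {V : X.Opens} (h : V ≤ U) (m : Sec C V) (a : κ → Γ(X, V))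
    (ha : ∑ j, a j • res C h (b j) = m) : cd hb h m = a := by
  apply (hb V h).1
  rw [comb_apply, comb_apply, ha]
  exact sum_cd hb h m

theorem cd_res {V W : X.Opens} (h : V ≤ U) (h' : W ≤ V) (m : Sec C V) :
    cd hb (h'.trans h) (res C h' m) = fun j => resO X h' (cd hb h m j) := by
  apply eq_cd
  conv_rhs => rw [← sum_cd hb h m, map_sum]
  refine Finset.sum_congr rfl fun j _ => ?_
  rw [res_smul, Sec.res_res]

/-- The dual sections. -/
noncomputable def dsec (j : κ) : Sec (homSheaf C (Coh.structureModule X)) U :=
  mkSec (M := C) (N := Coh.structureModule X) (fun V hV =>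
    { toFun := fun m => (show Sec (Coh.structureModule X) V from cd hb hV m j)
      map_add' := fun m m' => congrFun ((cd hb hV).map_add m m') j
      map_smul' := fun a m => congrFun ((cd hb hV).map_smul a m) j })
    (fun V W hV h m => by
      exact congrFun (cd_res hb hV h m) j)

theorem evO_dsec (j : κ) {V : X.Opens} (h : V ≤ U) (m : Sec C V) : evO (dsec hb j) h m = cd hb h m j := rfl

theorem evO_eq_sum (s : Sec (homSheaf C (Coh.structureModule X)) U) {V : X.Opens} (h : V ≤ U) (m : Sec C V) :
    evO s h m = ∑ j, cd hb h m j * evO s h (res C h (b j)) := by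
  conv_lhs => rw [← sum_cd hb h m]
  rw [evO_sum_right]
  refine Finset.sum_congr rfl fun j _ => ?_
  rw [evO_smul_right]

theorem eq_sum_dsec {V : X.Opens} (h : V ≤ U) (s : Sec (homSheaf C (Coh.structureModule X)) V) :
    s = ∑ j, evO s le_rfl (res C h (b j)) • res _ h (dsec hb j) := by
  apply evO_ext
  intro W hW m
  rw [evO_sum]
  have h1 : evO s hW m = ∑ j, cd hb (hW.trans h) m j * evO s hW (res C (hW.trans h) (b j)) := by
    conv_lhs => rw [← sum_cd hb (hW.trans h) m]
    rw [evO_sum_right]
    refine Finset.sum_congr rfl fun j _ => ?_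
    rw [evO_smul_right]
  rw [h1]
  refine Finset.sum_congr rfl fun j _ => ?_
  rw [evO_smul, evO_res, evO_dsec, mul_comm]
  congr 1
  rw [← Sec.res_res C h hW]
  exact evO_map s le_rfl hW (res C h (b j))

theorem isLocBasis_dsec : IsLocBasis (M := homSheaf C (Coh.structureModule X)) (dsec hb) := by
  classical
  intro V h
  constructor
  · rw [← LinearMap.ker_eq_bot, LinearMap.ker_eq_bot']
    intro a ha
    funext k
    have h1 : evO (comb (M := homSheaf C (Coh.structureModule X)) (dsec hb) h a) le_rfl (res C h (b k)) = 0 := by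
      rw [ha]
      exact evO_zero _ _
    rw [comb_apply, evO_sum] at h1
    have h2 : ∀ j, evO (a j • res _ h (dsec hb j)) le_rfl (res C h (b k)) = if j = k then a j else 0 := by
      intro j
      rw [evO_smul, evO_res, evO_dsec, eq_cd hb h (res C h (b k)) (Pi.single k 1) (by
        rw [Finset.sum_eq_single k]
        · simp
        · intro j _ hj
          simp [hj]
        · simp), resO_self]
      by_cases hjk : j = k
      · subst hjk
        simp
      · simp [hjk]
    simp only [h2] at h1
    rw [Finset.sum_ite_eq' Finset.univ k a] at h1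
    simpa using h1
  · intro s
    exact ⟨fun j => evO s le_rfl (res C h (b j)), (eq_sum_dsec hb h s).symm⟩

/-- Change of basis for the dual sections. -/
theorem dsec_change {V : X.Opens} (h : V ≤ U) {κ' : Type} [Fintype κ'] {b' : κ' → Sec C V} (hb' : IsLocBasis b')
    (a : κ → κ' → Γ(X, V)) (ha : ∀ j, res C h (b j) = ∑ k, a j k • b' k) (k : κ') :
    dsec hb' k = ∑ j, a j k • res _ h (dsec hb j) := by
  apply evO_ext
  intro W hW m
  rw [evO_sum, evO_dsec]
  have h1 : cd hb' hW m = fun k => ∑ j, cd hb (hW.trans h) m j * resO X hW (a j k) := by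
    apply eq_cd
    conv_rhs => rw [← sum_cd hb (hW.trans h) m]
    simp only [Finset.sum_smul]
    rw [Finset.sum_comm]
    refine Finset.sum_congr rfl fun j _ => ?_
    rw [← Sec.res_res C h hW, ha, map_sum, Finset.smul_sum]
    refine Finset.sum_congr rfl fun k _ => ?_
    rw [res_smul, mul_smul]
  rw [h1]
  refine Finset.sum_congr rfl fun j _ => ?_
  rw [evO_smul, evO_res, evO_dsec, mul_comm]

end Basis

end Groth.Agent.Dual.H376.DualBasis
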