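import Groth.Agent.Dual.H337.RDQ
import Groth.Prelude.Def_Dual3

/-!
# Computing `RHomOPlus i O` for `O ≅ O_Y[0]` by an injective resolution
-/

set_option autoImplicit false

universe u

open CategoryTheory CategoryTheory.Limits AlgebraicGeometry

attribute [local instance] HasDerivedCategory.standard

namespace Groth.Agent.Dual.H376.Reduce

variable {X Y : Scheme.{u}} (i : X ⟶ Y)

/-- Cohomology sheaves of `Q E`. -/
noncomputable def hdQ (E : CochainComplex X.Modules ℤ) (j : ℤ) :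
    DCoh.HD (DerivedCategory.Q.obj E) j ≅ E.homology j :=
  (DerivedCategory.homologyFunctorFactors X.Modules j).app E

/-- Cohomology of a module in degree `0`. -/
theorem isZero_hd_inD (M : X.Modules) (j : ℤ) (hj : j ≠ 0) : IsZero (DCoh.HD (DCoh.inD X M) j) := by
  refine IsZero.of_iso ?_ ((DerivedCategory.homologyFunctor X.Modules j).mapIso
    ((DerivedCategory.singleFunctorIsoCompQ X.Modules 0).app M) ≪≫
      hdQ ((HomologicalComplex.single X.Modules (ComplexShape.up ℤ) 0).obj M) j)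
  exact HomologicalComplex.isZero_single_obj_homology _ _ _ _ hj

/-- Cohomology of a module in degree `0`. -/
noncomputable def hd0_inD (M : X.Modules) : DCoh.HD (DCoh.inD X M) 0 ≅ M :=
  (DerivedCategory.homologyFunctor X.Modules 0).mapIso
    ((DerivedCategory.singleFunctorIsoCompQ X.Modules 0).app M) ≪≫
      hdQ ((HomologicalComplex.single X.Modules (ComplexShape.up ℤ) 0).obj M) 0 ≪≫
      (HomologicalComplex.homologyFunctorSingleIso X.Modules (ComplexShape.up ℤ) 0).app M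

/-- **Reduction to bounded below complexes of injectives.** -/
theorem reduce [Dual3.HasHomO i] [EnoughInjectives Y.Modules] (r : ℕ) (L : X.Modules)
    (O : DerivedCategory.Plus Y.Modules) (hO : Nonempty (O.obj ≅ DCoh.inD Y (Coh.structureModule Y)))
    (hcore : ∀ I : CochainComplex Y.Modules ℤ, (∀ j, Injective (I.X j)) → (∀ j < 0, IsZero (I.X j)) →
      (∀ j, j ≠ 0 → IsZero (I.homology j)) → Nonempty (I.homology 0 ≅ Coh.structureModule Y) →
      (∀ j : ℤ, j ≠ (r : ℤ) → IsZero ((((Dual3.homO i).mapHomologicalComplex (ComplexShape.up ℤ)).obj I).homology j)) ∧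
      Nonempty ((((Dual3.homO i).mapHomologicalComplex (ComplexShape.up ℤ)).obj I).homology (r : ℤ) ≅ L)) :
    (∀ j : ℤ, j ≠ (r : ℤ) → IsZero (DCoh.HD ((Dual3.RHomOPlus i).obj O).obj j)) ∧
      Nonempty (DCoh.HD ((Dual3.RHomOPlus i).obj O).obj (r : ℤ) ≅ L) := by
  obtain ⟨eO⟩ := hO
  have hGE : O.IsGE 0 := by
    rw [← O.isGE_ι_obj_iff 0]
    exact DerivedCategory.TStructure.t.isGE_of_iso eO.symm 0
  obtain ⟨J, hJ, ⟨e⟩⟩ := DerivedCategory.Plus.exists_injective_nonempty_iso O 0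
  let I : CochainComplex Y.Modules ℤ := ((InjectiveObject.ι _).mapCochainComplexPlus.obj J).obj
  have hI : I.IsStrictlyGE 0 :=
    (CochainComplex.isStrictlyGE_mapHomologicalComplex_obj_iff J.obj (InjectiveObject.ι Y.Modules) 0).mpr hJ
  let e1 : ((Dual3.RHomOPlus i).obj O).obj ≅ DerivedCategory.Q.obj
      (((Dual3.homO i).mapHomologicalComplex (ComplexShape.up ℤ)).obj I) :=
    DerivedCategory.Plus.ι.mapIso ((Dual3.RHomOPlus i).mapIso e.symm) ≪≫ H337.RDQ.isoQ (Dual3.homO i) J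
  let e2 : DerivedCategory.Q.obj I ≅ O.obj :=
    ((DerivedCategory.quotientCompQhIso Y.Modules).app I).symm ≪≫ DerivedCategory.Plus.ι.mapIso e
  let eH : ∀ j : ℤ, DCoh.HD ((Dual3.RHomOPlus i).obj O).obj j ≅
      (((Dual3.homO i).mapHomologicalComplex (ComplexShape.up ℤ)).obj I).homology j := fun j =>
    (DerivedCategory.homologyFunctor X.Modules j).mapIso e1 ≪≫ hdQ _ j
  let eI : ∀ j : ℤ, I.homology j ≅ DCoh.HD (DCoh.inD Y (Coh.structureModule Y)) j := fun j =>
    (hdQ I j).symm ≪≫ (DerivedCategory.homologyFunctor Y.Modules j).mapIso (e2 ≪≫ eO)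
  obtain ⟨h1, ⟨h2⟩⟩ := hcore I (fun j => (J.obj.X j).property) (fun j hj => I.isZero_of_isStrictlyGE 0 j hj)
    (fun j hj => IsZero.of_iso (isZero_hd_inD _ j hj) (eI j)) ⟨eI 0 ≪≫ hd0_inD _⟩
  exact ⟨fun j hj => IsZero.of_iso (h1 j hj) (eH j), ⟨eH (r : ℤ) ≪≫ h2⟩⟩

end Groth.Agent.Dual.H376.Reduce
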