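import Groth.Agent.Dual.H376.Core
import Groth.Agent.Dual.H376.Reduce
import Groth.Agent.Dual.H377.ChartCls

/-!
# `H^j(R Hom(O_X, O_Y))` for a Koszul-regular immersion
-/

set_option autoImplicit false

universe u

open CategoryTheory CategoryTheory.Limits AlgebraicGeometry
open Groth.Agent.Dual.H376.ExtData Groth.Agent.Dual.H376.Reduce

attribute [local instance] HasDerivedCategory.standard

namespace Groth.Agent.Dual.H376.Final

variable {X Y : Scheme.{u}} {i : X ⟶ Y}

/-- The data over the Koszul charts for an injective resolution of `O_Y`. -/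
noncomputable def extData (r : ℕ) (R : InjectiveResolution (Coh.structureModule Y)) :
    ExtData i r R.cochainComplex where
  van c p j hp hj x hx hd := by
    subst hp
    exact H377.ChartCls.van R c p hj x hx hd
  IsCls c z := H377.ChartCls.IsCls R c z
  exists_cls c := H377.ChartCls.exists_isCls R c
  tors c z h := h.smul_eq_zero
  cocyc c z h := h.d_eq_zero
  gen c z h p hp x hx hd := by
    obtain rfl : p = (r : ℤ) - 1 := by omega
    exact h.gen x hx hd
  inj c z h p hp a y hy e := by
    obtain rfl : p = (r : ℤ) - 1 := by omega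
    exact h.mem_span a y hy e
  change c c' h α hα z hz := hz.change h α hα
  unique c z z' h h' p hp := by
    obtain rfl : p = (r : ℤ) - 1 := by omega
    exact h.unique h'

/-- `RHomOPlus i O` computed by an injective resolution of `O_Y`. -/
theorem nonempty_iso_Q [Dual3.HasHomO i] [EnoughInjectives Y.Modules] (O : DerivedCategory.Plus Y.Modules)
    (hO : Nonempty (O.obj ≅ DCoh.inD Y (Coh.structureModule Y)))
    (R : InjectiveResolution (Coh.structureModule Y)) :
    Nonempty (((Dual3.RHomOPlus i).obj O).obj ≅ DerivedCategory.Q.obj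
      (((Dual3.homO i).mapHomologicalComplex (ComplexShape.up ℤ)).obj R.cochainComplex)) := by
  obtain ⟨eO⟩ := hO
  let J' : CochainComplex (InjectiveObject Y.Modules) ℤ :=
    HomologicalComplex.liftObjectProperty _ R.cochainComplex (fun n => inferInstance)
  have hJ' : J'.IsStrictlyGE 0 := by
    rw [← CochainComplex.isStrictlyGE_mapHomologicalComplex_obj_iff _ (InjectiveObject.ι _)]
    exact (inferInstance : R.cochainComplex.IsStrictlyGE 0)
  let J : CochainComplex.Plus (InjectiveObject Y.Modules) := ⟨J', 0, hJ'⟩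
  let e0 : DerivedCategory.Q.obj R.cochainComplex ≅ DCoh.inD Y (Coh.structureModule Y) :=
    (asIso (DerivedCategory.Q.map R.ι')).symm ≪≫
      ((DerivedCategory.singleFunctorIsoCompQ Y.Modules 0).app (Coh.structureModule Y)).symm
  let e2 : (DerivedCategory.Plus.Q.obj ((InjectiveObject.ι _).mapCochainComplexPlus.obj J)).obj ≅ O.obj :=
    (DerivedCategory.quotientCompQhIso Y.Modules).app R.cochainComplex ≪≫ e0 ≪≫ eO.symm
  let e3 : DerivedCategory.Plus.Q.obj ((InjectiveObject.ι _).mapCochainComplexPlus.obj J) ≅ O :=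
    DerivedCategory.Plus.ι.preimageIso e2
  exact ⟨DerivedCategory.Plus.ι.mapIso ((Dual3.RHomOPlus i).mapIso e3.symm) ≪≫
    H337.RDQ.isoQ (Dual3.homO i) J⟩

/-- **`H^j(R Hom(O_X, O_Y))`.** -/
theorem main (hi : Dual3.IsKoszulRegularImmersion i) [IsClosedImmersion i] (r : ℕ)
    (hC : FlatMod.IsFinLocFreeOfRank r (Omega.conormal i)) [DCoh.HasSheafHom (Omega.conormal i)] (L : X.Modules)
    (hL : ExtPow.IsExtPow r ((DCoh.sheafHom (Omega.conormal i)).obj (Coh.structureModule X)) L) [Dual3.HasHomO i]
    [EnoughInjectives Y.Modules] (O : DerivedCategory.Plus Y.Modules)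
    (hO : Nonempty (O.obj ≅ DCoh.inD Y (Coh.structureModule Y))) :
    (∀ j : ℤ, j ≠ (r : ℤ) → IsZero (DCoh.HD ((Dual3.RHomOPlus i).obj O).obj j)) ∧
      Nonempty (DCoh.HD ((Dual3.RHomOPlus i).obj O).obj (r : ℤ) ≅ L) := by
  let R : InjectiveResolution (Coh.structureModule Y) := injectiveResolution _
  obtain ⟨e⟩ := nonempty_iso_Q (i := i) O hO R
  let eH : ∀ j : ℤ, DCoh.HD ((Dual3.RHomOPlus i).obj O).obj j ≅
      (((Dual3.homO i).mapHomologicalComplex (ComplexShape.up ℤ)).obj R.cochainComplex).homology j := fun j =>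
    (DerivedCategory.homologyFunctor X.Modules j).mapIso e ≪≫ hdQ _ j
  obtain ⟨h1, ⟨h2⟩⟩ := Core.core (extData (i := i) r R) hi hC L hL
  exact ⟨fun j hj => IsZero.of_iso (h1 j hj) (eH j), ⟨eH (r : ℤ) ≪≫ h2⟩⟩

end Groth.Agent.Dual.H376.Final
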