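import Groth.Agent.Sga67.LocBasis

/-!
# Gluing isomorphisms of invertible modules given by local generators

`nonempty_iso_of_gens`: two O_X-modules with local generators (local bases of one element) over the members of an open
covering, with the same transition functions, are isomorphic.
-/

set_option autoImplicit false

universe u

open CategoryTheory CategoryTheory.Limits AlgebraicGeometry Opposite TopologicalSpace
open Groth.Agent.Sga67.Sec Groth.Agent.Sga67.LocBasis

namespace Groth.Agent.Dual.H376.GlueGen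

variable {X : Scheme.{u}}

/-- `e` is a local generator of `E` over `U`: for every open `V ≤ U`, `a ↦ a • e|_V` is bijective. -/
def IsGen {E : X.Modules} {U : X.Opens} (e : Sec E U) : Prop :=
  ∀ (V : X.Opens) (h : V ≤ U), Function.Bijective (fun a : Γ(X, V) => a • res E h e)

theorem isGen_iff {E : X.Modules} {U : X.Opens} (e : Sec E U) : IsGen e ↔ IsLocBasis (fun _ : Fin 1 => e) := by
  have h1 : ∀ (V : X.Opens) (h : V ≤ U), Function.Bijective (comb (M := E) (fun _ : Fin 1 => e) h) ↔
      Function.Bijective (fun a : Γ(X, V) => a • res E h e) := by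
    intro V h
    let ε : Γ(X, V) ≃ (Fin 1 → Γ(X, V)) := (Equiv.funUnique (Fin 1) Γ(X, V)).symm
    have h2 : (fun a : Γ(X, V) => a • res E h e) = comb (M := E) (fun _ : Fin 1 => e) h ∘ ε := by
      funext a
      rw [Function.comp_apply, comb_apply, Fin.sum_univ_one]
      rfl
    rw [h2]
    exact (Function.Bijective.of_comp_iff _ ε.bijective).symm
  constructor
  · intro H V h
    exact (h1 V h).mpr (H V h)
  · intro H V h
    exact (h1 V h).mp (H V h)

theorem IsGen.restrict {E : X.Modules} {U V : X.Opens} {e : Sec E U} (he : IsGen e) (h : V ≤ U) :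
    IsGen (res E h e) := by
  intro W hW
  have := he W (hW.trans h)
  rw [res_res]
  exact this

theorem IsGen.of_iso {E E' : X.Modules} {U : X.Opens} {e : Sec E U} (he : IsGen e) (ε : E ≅ E') :
    IsGen (appS ε.hom U e) := by
  rw [isGen_iff] at he ⊢
  exact he.of_iso ε

/-- The coordinate of a section. -/
noncomputable def co {E : X.Modules} {U : X.Opens} {e : Sec E U} (he : IsGen e) {V : X.Opens} (h : V ≤ U)
    (s : Sec E V) : Γ(X, V) := ((he V h).2 s).choose

theorem co_smul {E : X.Modules} {U : X.Opens} {e : Sec E U} (he : IsGen e) {V : X.Opens} (h : V ≤ U)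
    (s : Sec E V) : co he h s • res E h e = s := ((he V h).2 s).choose_spec

theorem eq_co {E : X.Modules} {U : X.Opens} {e : Sec E U} (he : IsGen e) {V : X.Opens} (h : V ≤ U)
    (s : Sec E V) (a : Γ(X, V)) (ha : a • res E h e = s) : a = co he h s :=
  (he V h).1 (ha.trans (co_smul he h s).symm)

/-- The map on sections over `V`. -/
noncomputable def trans {E L : X.Modules} {U : X.Opens} {e : Sec E U} (he : IsGen e) (l : Sec L U)
    {V : X.Opens} (h : V ≤ U) : Sec E V →ₗ[Γ(X, V)] Sec L V where
  toFun s := co he h s • res L h l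
  map_add' s t := by
    rw [← add_smul]
    congr 1
    refine (eq_co he h _ _ ?_).symm
    rw [add_smul, co_smul, co_smul]
  map_smul' a s := by
    rw [RingHom.id_apply, smul_smul]
    congr 1
    refine (eq_co he h _ _ ?_).symm
    rw [mul_smul, co_smul]

theorem trans_smul {E L : X.Modules} {U : X.Opens} {e : Sec E U} (he : IsGen e) (l : Sec L U)
    {V : X.Opens} (h : V ≤ U) (a : Γ(X, V)) : trans he l h (a • res E h e) = a • res L h l := by
  change co he h (a • res E h e) • res L h l = _
  rw [← eq_co he h _ a rfl]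

theorem trans_bijective {E L : X.Modules} {U : X.Opens} {e : Sec E U} (he : IsGen e) {l : Sec L U} (hl : IsGen l)
    {V : X.Opens} (h : V ≤ U) : Function.Bijective (trans he l h) := by
  constructor
  · intro s t hst
    have h1 : co he h s = co he h t := (hl V h).1 hst
    rw [← co_smul he h s, ← co_smul he h t, h1]
  · intro s
    obtain ⟨a, ha⟩ := (hl V h).2 s
    exact ⟨a • res E h e, (trans_smul he l h a).trans ha⟩

/-- Gluing isomorphisms of invertible modules given by local generators with the same transition functions. -/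
theorem nonempty_iso_of_gens {ι : Type*} (B : ι → X.Opens) (hB : ∀ x : X, ∃ i, x ∈ B i) (E L : X.Modules)
    (e : ∀ i, Sec E (B i)) (l : ∀ i, Sec L (B i)) (he : ∀ i, IsGen (e i)) (hl : ∀ i, IsGen (l i))
    (h : ∀ (i j : ι) (x : X), x ∈ B i → x ∈ B j → ∃ (W : X.Opens) (hi : W ≤ B i) (hj : W ≤ B j) (a : Γ(X, W)),
      x ∈ W ∧ res E hi (e i) = a • res E hj (e j) ∧ res L hi (l i) = a • res L hj (l j)) :
    Nonempty (E ≅ L) := by
  let κ : Type _ := Σ i, { W : X.Opens // W ≤ B i }
  let C : κ → X.Opens := fun k => k.2.1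
  have hC : Opens.IsBasis (Set.range C) := by
    rw [Opens.isBasis_iff_nbhd]
    intro U x hx
    obtain ⟨i, hi⟩ := hB x
    exact ⟨U ⊓ B i, ⟨⟨i, ⟨U ⊓ B i, inf_le_right⟩⟩, rfl⟩, ⟨hx, hi⟩, inf_le_left⟩
  obtain ⟨f, hf⟩ := exists_hom_of_basis' (B := C) hC E L (fun k => trans (he k.1) (l k.1) k.2.2) (by
    rintro ⟨i, W, hW⟩ ⟨j, W', hW'⟩ (hWW : W' ≤ W) s
    change trans (he j) (l j) hW' (res E hWW s) = res L hWW (trans (he i) (l i) hW s)
    apply eq_of_locally
    intro x hx
    obtain ⟨W₂, hi, hj, a, hxW₂, h1, h2⟩ := h i j x (hW (hWW hx)) (hW' hx)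
    refine ⟨W₂ ⊓ W', inf_le_right, ⟨hxW₂, hx⟩, ?_⟩
    have h3 : ∀ {W₁ W₃ : X.Opens} (k : ι) (hk : W₁ ≤ B k) (h₃ : W₃ ≤ W₁) (s : Sec E W₁),
        res L h₃ (trans (he k) (l k) hk s) = trans (he k) (l k) (h₃.trans hk) (res E h₃ s) := by
      intro W₁ W₃ k hk h₃ s
      conv_rhs => rw [← co_smul (he k) hk s, res_smul, res_res, trans_smul]
      change res L h₃ (co (he k) hk s • res L hk (l k)) = _
      rw [res_smul, res_res]
    rw [h3, res_res, res_res, h3]
    have h4 : res E (inf_le_left.trans hi : W₂ ⊓ W' ≤ B i) (e i) =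
        resO X (inf_le_left : W₂ ⊓ W' ≤ W₂) a • res E (inf_le_left.trans hj) (e j) := by
      rw [← res_res E hi inf_le_left, h1, res_smul, res_res]
    have h5 : res L (inf_le_left.trans hi : W₂ ⊓ W' ≤ B i) (l i) =
        resO X (inf_le_left : W₂ ⊓ W' ≤ W₂) a • res L (inf_le_left.trans hj) (l j) := by
      rw [← res_res L hi inf_le_left, h2, res_smul, res_res]
    generalize (res E _ s : Sec E (W₂ ⊓ W')) = t
    obtain ⟨b, hb⟩ := (he i (W₂ ⊓ W') (inf_le_left.trans hi)).2 t
    beta_reduce at hb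
    have h6 : trans (he i) (l i) (inf_le_left.trans hi : W₂ ⊓ W' ≤ B i) t =
        b • res L (inf_le_left.trans hi) (l i) := by
      rw [← hb]; exact trans_smul _ _ _ _
    have h7 : trans (he j) (l j) (inf_le_left.trans hj : W₂ ⊓ W' ≤ B j) t =
        (b * resO X (inf_le_left : W₂ ⊓ W' ≤ W₂) a) • res L (inf_le_left.trans hj) (l j) := by
      rw [← hb, h4, smul_smul]; exact trans_smul _ _ _ _
    refine h7.trans (Eq.trans ?_ h6.symm)
    rw [h5, smul_smul])
  have : IsIso f := isIso_of_bijective f (by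
    intro x U hx
    obtain ⟨i, hi⟩ := hB x
    refine ⟨U ⊓ B i, inf_le_left, ⟨hx, hi⟩, ?_⟩
    have h1 := trans_bijective (he i) (hl i) (inf_le_right : U ⊓ B i ≤ B i)
    have h2 : (appS f (U ⊓ B i) : Sec E (U ⊓ B i) → Sec L (U ⊓ B i)) =
        trans (he i) (l i) (inf_le_right : U ⊓ B i ≤ B i) :=
      funext fun s => hf ⟨i, ⟨U ⊓ B i, inf_le_right⟩⟩ s
    rw [h2]
    exact h1)
  exact ⟨asIso f⟩

end Groth.Agent.Dual.H376.GlueGen
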